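import Cfsg.Agent.Lib.Tits.Cox

/-!
# Package BLD: distances, residues, gates, opposite and parallel panels (see `plans/TITS.md`)
-/

set_option autoImplicit false

namespace CfsgLib.Tits
open CfsgLib.BN

namespace Bld
variable {B W : Type*} [Group W] {E : ExchSys B W} {C : Type*} (D : Bld E C)

theorem δ_eq_one_iff {x y : C} : D.δ x y = 1 ↔ x = y := ⟨D.eq_of_δ x y, fun h => h ▸ D.δ_self x⟩

theorem exists_mid {x z : C} {v w : W} (h : D.δ x z = v * w) : ∃ y, D.δ x y = v ∧ D.δ y z = w := by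
  obtain ⟨a, ha, h1, h2⟩ := D.apt x z
  exact ⟨a v, by rw [← h1, ha]; simp, by rw [← h2, ha, h]; simp⟩

theorem exists_δ (x : C) (w : W) : ∃ y, D.δ x y = w := by
  obtain ⟨a, ha, h1, -⟩ := D.apt x x
  exact ⟨a w, by rw [← h1, ha]; simp⟩

theorem δ_s_symm {x y : C} {i : B} (h : D.δ x y = E.s i) : D.δ y x = E.s i := by
  rw [D.δ_symm, h, E.s_inv]

theorem len_δ_symm (x y : C) : E.len (D.δ x y) = E.len (D.δ y x) := by rw [D.δ_symm, E.len_inv]

/-- induction along minimal galleries to `y` -/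
theorem gal_ind (y : C) {p : C → Prop} (h0 : p y) (hs : ∀ x x₁ i, D.δ x x₁ = E.s i →
    E.P i (D.δ x₁ y) → D.δ x y = E.s i * D.δ x₁ y → p x₁ → p x) (x : C) : p x := by
  generalize h : D.δ x y = v
  induction v using E.induction_red_left generalizing x with
  | h1 => exact D.eq_of_δ x y h ▸ h0
  | hs i v hP ih =>
    obtain ⟨x₁, h1, rfl⟩ := D.exists_mid h
    exact hs x x₁ i h1 hP h (ih x₁ rfl)

theorem len_split {i : B} {v w : W} (hP : E.P i v)
    (h : E.len (E.s i * v * w) = E.len (E.s i * v) + E.len w) :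
    E.len (v * w) = E.len v + E.len w ∧ E.P i (v * w) := by
  have h1 := E.len_of_P hP
  have h2 := E.len_s_mul_le i (v * w)
  have h3 := E.len_mul_le v w
  rw [E.P_iff, ← mul_assoc] at *
  omega

/-- distances multiply when the lengths add -/
theorem δ_mul {x y z : C} (h : E.len (D.δ x y * D.δ y z) = E.len (D.δ x y) + E.len (D.δ y z)) :
    D.δ x z = D.δ x y * D.δ y z := by
  induction x using D.gal_ind y with
  | h0 => rw [D.δ_self, one_mul]
  | hs x x₁ i h1 hP h2 ih =>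
    rw [h2] at h ⊢
    obtain ⟨h3, h4⟩ := len_split hP h
    rw [D.δ_P i x x₁ z h1 (ih h3 ▸ h4), ih h3, mul_assoc]

theorem len_δ_le (x y z : C) : E.len (D.δ x z) ≤ E.len (D.δ x y) + E.len (D.δ y z) := by
  induction x using D.gal_ind y with
  | h0 => omega
  | hs x x₁ i h1 hP h2 ih =>
    have h3 := E.len_s_mul_le i (D.δ x₁ z)
    rw [h2, E.len_of_P hP]
    rcases D.δ_or i x x₁ z h1 with h | h <;> rw [h] <;> omega

theorem δ_mul_of_len {x y z : C} (h : E.len (D.δ x z) = E.len (D.δ x y) + E.len (D.δ y z)) :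
    D.δ x z = D.δ x y * D.δ y z := by
  induction x using D.gal_ind y with
  | h0 => rw [D.δ_self, one_mul]
  | hs x x₁ i h1 hP h2 ih =>
    have h3 := E.len_s_mul_le i (D.δ x₁ z)
    have h4 := D.len_δ_le x₁ y z
    rw [h2, E.len_of_P hP] at h
    rcases D.δ_or i x x₁ z h1 with h' | h' <;> rw [h'] at h
    · rw [h', h2, ih (by omega), mul_assoc]
    · omega

theorem mid_unique {x y y' z : C} {v w : W} (h : E.len (v * w) = E.len v + E.len w) (h1 : D.δ x y = v)
    (h2 : D.δ y z = w) (h1' : D.δ x y' = v) (h2' : D.δ y' z = w) : y = y' := by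
  induction v using E.induction_red_left generalizing x with
  | h1 => exact (D.eq_of_δ _ _ h1).symm.trans (D.eq_of_δ _ _ h1')
  | hs i v hP ih =>
    obtain ⟨h3, h4⟩ := len_split hP h
    obtain ⟨u, a1, a2⟩ := D.exists_mid h1
    obtain ⟨u', b1, b2⟩ := D.exists_mid h1'
    rcases D.δ_or i u x u' (D.δ_s_symm a1) with k | k <;> rw [b1] at k
    · rw [E.sq] at k
      exact ih h3 a2 (D.eq_of_δ _ _ k ▸ b2)
    · have c1 : D.δ u z = v * w := by rw [D.δ_mul (y := y) (by rwa [a2, h2]), a2, h2]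
      have c2 : D.δ u' z = v * w := by rw [D.δ_mul (y := y') (by rwa [b2, h2']), b2, h2']
      have := D.δ_P i u u' z k (c2 ▸ h4)
      rw [c1, c2] at this
      exact absurd (right_eq_mul.1 this) (E.s_ne_one i)

theorem δ_or_right {x y z : C} {i : B} (h : D.δ y z = E.s i) : D.δ x z = D.δ x y * E.s i ∨ D.δ x z = D.δ x y := by
  rw [D.δ_symm z x, D.δ_symm y x]
  rcases D.δ_or i z y x (D.δ_s_symm h) with k | k <;> simp [k]

theorem δ_P_right {x y z : C} {i : B} (h : D.δ y z = E.s i) (h' : E.len (D.δ x y) < E.len (D.δ x y * E.s i)) :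
    D.δ x z = D.δ x y * E.s i := by
  have := E.len_mul_s_le i (D.δ x y)
  rw [D.δ_mul (y := y) (by rw [h, E.len_s]; omega), h]

theorem mem_R {J : Set B} {x z : C} : z ∈ D.R J x ↔ D.δ x z ∈ E.par J := Iff.rfl

theorem self_mem_R (J : Set B) (x : C) : x ∈ D.R J x := by
  rw [mem_R, D.δ_self]; exact one_mem _

theorem R_symm {J : Set B} {x y : C} (h : y ∈ D.R J x) : x ∈ D.R J y := by
  rw [mem_R, D.δ_symm]; exact inv_mem h

theorem mem_of_step {J : Set B} {i : B} {v : W} (hP : E.P i v) (h : E.s i * v ∈ E.par J) :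
    i ∈ J ∧ v ∈ E.par J :=
  have hi := E.mem_of_not_P h (E.P_not i v hP)
  ⟨hi, (mul_mem_cancel_left (E.s_mem_par hi)).1 h⟩

theorem exists_δ_eq_mul {J : Set B} {x z : C} (h : z ∈ D.R J x) (y : C) : ∃ v ∈ E.par J, D.δ z y = v * D.δ x y := by
  replace h : D.δ z x ∈ E.par J := D.R_symm h
  induction z using D.gal_ind x with
  | h0 => exact ⟨1, one_mem _, (one_mul _).symm⟩
  | hs z z₁ i h1 hP h2 ih =>
    obtain ⟨hi, h3⟩ := mem_of_step hP (h2 ▸ h)
    obtain ⟨v, hv, e⟩ := ih h3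
    rcases D.δ_or i z z₁ y h1 with k | k
    · exact ⟨E.s i * v, mul_mem (E.s_mem_par hi) hv, by rw [k, e, mul_assoc]⟩
    · exact ⟨v, hv, k.trans e⟩

theorem R_trans {J : Set B} {x y z : C} (h : y ∈ D.R J x) (h' : z ∈ D.R J y) : z ∈ D.R J x := by
  obtain ⟨v, hv, e⟩ := D.exists_δ_eq_mul (D.R_symm h) z
  rw [mem_R, e]; exact mul_mem hv h'

theorem R_eq {J : Set B} {x y : C} (h : y ∈ D.R J x) : D.R J y = D.R J x := 
  Set.ext fun _ => ⟨D.R_trans h, D.R_trans (D.R_symm h)⟩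

theorem δ_mem_par {J : Set B} {x y z : C} (h : y ∈ D.R J x) (h' : z ∈ D.R J x) : D.δ y z ∈ E.par J := 
  D.R_trans (D.R_symm h) h'

theorem R_mono {J K : Set B} (h : J ⊆ K) (x : C) : D.R J x ⊆ D.R K x := fun _ hz => E.par_mono h hz

theorem R_inter (J K : Set B) (x : C) : D.R J x ∩ D.R K x = D.R (J ∩ K) x := by
  ext z; rw [mem_R, ← E.par_inf]; rfl

theorem mem_R_singleton {i : B} {x z : C} : z ∈ D.R {i} x ↔ z = x ∨ D.δ x z = E.s i := by
  rw [mem_R, E.mem_par_singleton, D.δ_eq_one_iff, eq_comm]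

theorem R_univ (x : C) : D.R Set.univ x = Set.univ := by
  ext z; simp [mem_R, E.par_univ]

/-- induction over a residue along galleries -/
theorem R_induction {J : Set B} {x : C} {p : C → Prop} (h0 : p x)
    (hs : ∀ y ∈ D.R J x, ∀ j ∈ J, ∀ z, D.δ y z = E.s j → E.len (D.δ x y) < E.len (D.δ x z) → p y → p z) :
    ∀ z ∈ D.R J x, p z := by
  intro z hz
  replace hz : D.δ z x ∈ E.par J := D.R_symm hz
  induction z using D.gal_ind x with
  | h0 => exact h0
  | hs z z₁ i h1 hP h2 ih =>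
    obtain ⟨hi, h3⟩ := mem_of_step hP (h2 ▸ hz)
    refine hs z₁ (D.R_symm h3) i hi z (D.δ_s_symm h1) ?_ (ih h3)
    rw [D.len_δ_symm x, D.len_δ_symm x, h2]; exact E.P_iff.1 hP

/-- the gate of `y` in the residue -/
theorem exists_gate (J : Set B) (x y : C) : ∃ p ∈ D.R J x, ∀ j ∈ J, E.P j (D.δ p y) := by
  obtain ⟨v, hv, d, hd, e⟩ := exists_left_min E J (D.δ x y)
  obtain ⟨p, rfl, rfl⟩ := D.exists_mid e
  exact ⟨p, hv, hd⟩

theorem δ_gate {J : Set B} {p y z : C} (hp : ∀ j ∈ J, E.P j (D.δ p y)) (hz : z ∈ D.R J p) :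
    D.δ z y = D.δ z p * D.δ p y := D.δ_mul (len_mul_of_P E (D.R_symm hz) hp)

theorem gate_unique {J : Set B} {p p' y : C} (hp : ∀ j ∈ J, E.P j (D.δ p y)) (hp' : ∀ j ∈ J, E.P j (D.δ p' y))
    (h : p' ∈ D.R J p) : p' = p := D.eq_of_δ _ _ (left_min_unique E (D.R_symm h) hp hp' (D.δ_gate hp h))

/-- two panels on the same wall -/
theorem exists_parallel {x y z : C} {i j : B} (h : E.s i * D.δ x y = D.δ x y * E.s j) (hP : E.P i (D.δ x y))
    (hz : z ∈ D.R {j} y) : ∃ u ∈ D.R {i} x, D.δ u z = D.δ x y := by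
  rcases D.mem_R_singleton.1 hz with rfl | hz
  · exact ⟨x, D.self_mem_R _ _, rfl⟩
  obtain ⟨u, h1, h2⟩ := D.exists_mid ((D.δ_P_right hz (h ▸ E.P_iff.1 hP)).trans h.symm)
  exact ⟨u, D.mem_R_singleton.2 (.inr h1), h2⟩

theorem mem_Aut {g : Equiv.Perm C} : g ∈ D.Aut ↔ ∀ x y, D.δ (g x) (g y) = D.δ x y := Iff.rfl

theorem aut_mem_R {g : Equiv.Perm C} (hg : g ∈ D.Aut) {J : Set B} {x z : C} : g z ∈ D.R J (g x) ↔ z ∈ D.R J x := by
  rw [mem_R, hg x z, mem_R]

/-- an automorphism fixes the chambers between two fixed chambers -/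
theorem aut_fix_mid {g : Equiv.Perm C} (hg : g ∈ D.Aut) {x y z : C} (hx : g x = x) (hz : g z = z)
    (h : E.len (D.δ x z) = E.len (D.δ x y) + E.len (D.δ y z)) : g y = y := 
  D.mid_unique (by rw [← D.δ_mul_of_len h, h]) (by rw [← hg x y, hx]) (by rw [← hg y z, hz]) rfl rfl

theorem aut_fix_parallel {g : Equiv.Perm C} (hg : g ∈ D.Aut) {x y : C} {i j : B}
    (h : E.s i * D.δ x y = D.δ x y * E.s j) (hx : ∀ u ∈ D.R {i} x, g u = u) (hy : g y = y) :
    ∀ z ∈ D.R {j} y, g z = z := by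
  wlog hP : E.P i (D.δ x y) generalizing x
  · obtain ⟨x', h1, h2⟩ := D.exists_mid (E.s_mul_s_mul i (D.δ x y)).symm
    refine this (x := x') (by rw [h2, mul_assoc, ← h]) ?_ (h2 ▸ (P_s_mul_iff E).2 hP)
    rwa [D.R_eq (D.mem_R_singleton.2 (.inr h1))]
  intro z hz
  obtain ⟨u, hu, e⟩ := D.exists_parallel h hP hz
  rcases D.mem_R_singleton.1 hz with rfl | hz
  · exact hy
  refine D.aut_fix_mid hg (hx u hu) hy ?_
  rw [D.δ_P_right (D.δ_s_symm hz) (by rw [e, ← h]; exact E.P_iff.1 hP), e, ← h, E.len_of_P hP,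
    D.δ_s_symm hz, E.len_s]

theorem IsApt.mul {D : Bld E C} {a : W → C} (ha : D.IsApt a) (v : W) : D.IsApt fun x => a (v * x) := 
  fun x y => (ha _ _).trans (by group)

theorem IsApt.injective {D : Bld E C} {a : W → C} (ha : D.IsApt a) : Function.Injective a := fun x y h =>
  inv_mul_eq_one.1 (by rw [← ha, h, D.δ_self])

theorem IsApt.mem_R {D : Bld E C} {a : W → C} (ha : D.IsApt a) {J : Set B} {x y : W} :
    a y ∈ D.R J (a x) ↔ x⁻¹ * y ∈ E.par J := by rw [Bld.mem_R, ha]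

theorem UG_mul {a : W → C} (v w : W) (i : B) :
    D.UG (fun x => a (v * x)) (rt E w i) = D.UG a (rt E (v * w) i) := by
  ext g
  refine and_congr_right fun _ => ⟨fun h => ⟨fun x hx => ?_, fun x k h1 h2 => ?_⟩,
    fun h => ⟨fun x hx => h.1 _ ((mul_mem_rt E).2 hx), fun x k h1 h2 =>
      h.2 _ k ((mul_mem_rt E).2 h1) (by rw [mul_assoc]; exact (mul_mem_rt E).2 h2)⟩⟩ <;>
    obtain ⟨x, rfl⟩ := (Group.mulLeft_bijective v).2 x
  · exact h.1 x ((mul_mem_rt E).1 hx)
  · exact h.2 x k ((mul_mem_rt E).1 h1) ((mul_mem_rt E).1 (by rwa [← mul_assoc]))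

theorem Act.conj {D : Bld E C} {a : W → C} {n : Equiv.Perm C} {v : W} (h : D.Act a n v) {w : W} {i : B}
    {u : Equiv.Perm C} (hu : u ∈ D.UG a (rt E w i)) : n * u * n⁻¹ ∈ D.UG a (rt E (v * w) i) := by
  rw [← D.UG_mul]
  refine ⟨mul_mem (mul_mem h.1 hu.1) (inv_mem h.1), fun x hx => ?_, fun x k h1 h2 z hz => ?_⟩
  · simp [← h.2, hu.2.1 x hx]
  · obtain ⟨z, rfl⟩ := n.surjective z
    beta_reduce at hz
    rw [← h.2, D.aut_mem_R h.1] at hz
    simp [hu.2.2 x k h1 h2 z hz]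

variable [Finite W]

/-- the gate of an opposite chamber -/
theorem exists_gate_w0 (J : Set B) {x y : C} (h : D.δ x y = w0 E) :
    ∃ p, D.δ x p = lng E J ∧ D.δ p y = lng E J * w0 E := 
  D.exists_mid (by rw [h, ← mul_assoc, lng_mul_self, one_mul])

/-- the gate in a residue of a chamber of the opposite residue -/
theorem exists_gate_opp {J : Set B} {x y u : C} (h : D.δ x y = w0 E) (hu : u ∈ D.R (op E '' J) y) :
    ∃ p ∈ D.R J x, D.δ p u = lng E J * w0 E := by
  obtain ⟨v, hv, e⟩ := D.exists_δ_eq_mul hu x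
  obtain ⟨p, h1, h2⟩ := D.exists_mid (x := x) (z := u) (v := w0 E * v⁻¹ * w0 E * lng E J)
    (w := lng E J * w0 E) (by
      rw [D.δ_symm, e, D.δ_symm, h, mul_assoc, ← mul_assoc (lng E J), lng_mul_self, one_mul, mul_assoc,
        w0_mul_self, mul_one, mul_inv_rev, inv_inv])
  exact ⟨p, by rw [mem_R, h1]; exact mul_mem ((mem_par_op E).1 (inv_mem hv)) (lng_mem E J), h2⟩

theorem δ_gate_opp {J : Set B} {p u u' : C} (hu : u' ∈ D.R (op E '' J) u)
    (h : D.δ p u = lng E J * w0 E) : D.δ p u' = lng E J * w0 E * D.δ u u' := by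
  have h1 : D.δ u p = w0 E * lng E J := by rw [D.δ_symm, h, mul_inv_rev, w0_inv, lng_inv]
  rw [D.δ_symm, D.δ_gate (fun j hj => h1 ▸ P_w0_mul_lng E hj) hu, mul_inv_rev, ← D.δ_symm,
    ← D.δ_symm, h]

/-- the projections between opposite residues preserve distances -/
theorem δ_opp {J : Set B} {p p' u u' : C} (hp : p' ∈ D.R J p) (hu : u' ∈ D.R (op E '' J) u)
    (h : D.δ p u = lng E J * w0 E) (h' : D.δ p' u' = lng E J * w0 E) :
    D.δ p p' * (lng E J * w0 E) = lng E J * w0 E * D.δ u u' := by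
  rw [← D.δ_gate_opp hu h, D.δ_gate (y := u') (fun j hj => h' ▸ P_lng_mul_w0 E hj) (D.R_symm hp), h']

theorem exists_near {K : Set B} {x y : C} {k : B} (hk : k ∈ K) (h : D.δ x y = lng E K) :
    ∃ g, ∀ z ∈ D.R {k} y, z ≠ g → D.δ x z = lng E K := by
  obtain ⟨g, h1, h2⟩ := D.exists_mid (h.trans (E.mul_s_mul_s k _).symm)
  refine ⟨g, fun z hz hg => ?_⟩
  have h3 := len_lng_mul E (E.s_mem_par hk)
  rw [D.δ_P_right ((D.mem_R_singleton.1 (D.R_trans (D.mem_R_singleton.2 (.inr h2)) hz)).resolve_left hg)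
    (by rw [h1, E.mul_s_mul_s, ← h3, E.len_s]; omega), h1, E.mul_s_mul_s]

/-- the same inside a residue -/
theorem exists_opp_two_lng {K : Set B} {x x' y : C} {k : B} (hk : k ∈ K) (h : D.δ x y = lng E K) {y' : C}
    (hy' : y' ∈ D.R {k} y) (h' : D.δ x' y' = lng E K) :
    ∃ u ∈ D.R {k} y, D.δ x u = lng E K ∧ D.δ x' u = lng E K := by
  obtain ⟨g, hg⟩ := D.exists_near hk h
  obtain ⟨g', hg'⟩ := D.exists_near hk h'
  obtain ⟨u, h1, h2, h3⟩ := D.thick k y g g'
  exact ⟨u, h1, hg u h1 h2, hg' u (D.R_trans (D.R_symm hy') h1) h3⟩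

/-- a chamber of a panel that is opposite two given chambers -/
theorem exists_opp_two {x x' y : C} {k : B} (h : D.δ x y = w0 E) {y' : C} (hy' : y' ∈ D.R {k} y)
    (h' : D.δ x' y' = w0 E) : ∃ u ∈ D.R {k} y, D.δ x u = w0 E ∧ D.δ x' u = w0 E := 
  D.exists_opp_two_lng (Set.mem_univ k) h hy' h'

/-- the lemma (PJ) -/
theorem gate_mem_R {J K L' : Set B} {x y u p q : C} (hy : D.δ x y = w0 E) (hu : D.δ x u = w0 E)
    (hyu : u ∈ D.R (op E '' J) y) (hL : ∀ v, v ∈ E.par L' ↔ lng E K * v * lng E K ∈ E.par (K ∩ J))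
    (hp : D.δ x p = lng E K) (hp' : D.δ p y = lng E K * w0 E)
    (hq : D.δ x q = lng E K) (hq' : D.δ q u = lng E K * w0 E) : q ∈ D.R L' p := by
  obtain ⟨r, r1, r2⟩ := D.exists_mid (x := x) (z := y) (v := lng E J * w0 E) (w := lng E (op E '' J)) (by
    rw [hy, lng_op, ← mul_assoc, ← mul_assoc, mul_assoc (lng E J), w0_mul_self, mul_one,
      lng_mul_self, one_mul])
  have hK := lng_mul_self E K
  have hLK : lng E (K ∩ J) ∈ E.par K := E.par_mono Set.inter_subset_left (lng_mem E _)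
  have hLJ : lng E (K ∩ J) ∈ E.par J := E.par_mono Set.inter_subset_right (lng_mem E _)
  obtain ⟨e, e1, e2⟩ := D.exists_mid (x := x) (z := r) (v := lng E (K ∩ J) * lng E K)
    (w := lng E K * (lng E (K ∩ J) * lng E J) * w0 E) (by
      rw [r1, mul_assoc, mul_assoc (lng E K), ← mul_assoc (lng E K), hK, one_mul, mul_assoc,
        ← mul_assoc, lng_mul_self, one_mul])
  have hry : y ∈ D.R (op E '' J) r := by rw [mem_R, r2]; exact lng_mem E _
  have key : ∀ u ∈ D.R (op E '' J) r, ∀ q, D.δ x u = w0 E → D.δ x q = lng E K →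
      D.δ q u = lng E K * w0 E → q ∈ D.R L' e := fun u hr q hu hq hq' => by
    have a1 : D.δ r u = w0 E * (lng E J * w0 E) := by
      have := D.δ_gate_opp hr r1
      rw [hu, ← inv_mul_eq_iff_eq_mul, mul_inv_rev, w0_inv, lng_inv, mul_assoc] at this
      exact this.symm
    have a2 : D.δ e r * D.δ r u = lng E K * lng E (K ∩ J) * w0 E := by
      rw [e2, a1, mul_assoc, ← mul_assoc (w0 E), w0_mul_self, one_mul, mul_assoc, mul_assoc,
        ← mul_assoc (lng E J), lng_mul_self, one_mul, mul_assoc]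
    have a3 : D.δ e u = lng E K * lng E (K ∩ J) * w0 E := by
      rw [← a2]
      refine D.δ_mul ?_
      have b1 := len_mul_of_P E (lng_mem E K) (d := lng E (K ∩ J) * lng E J) fun k hk => by
        by_cases hJ : k ∈ J
        · exact (P_mul_lng E hLJ hJ).2 (not_P_lng E ⟨hk, hJ⟩)
        · exact P_of_not_mem E (mul_mem hLJ (lng_mem E J)) hJ
      have b2 := len_mul_w0 E (lng E K * (lng E (K ∩ J) * lng E J))
      have b3 := len_mul_w0 E (lng E K * lng E (K ∩ J))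
      have b4 := len_mul_w0 E (lng E J)
      have b5 := len_w0_mul E (lng E J * w0 E)
      have b6 := len_mul_lng E hLJ
      have b7 := len_lng_mul E hLK
      rw [a2, e2, a1]; omega
    have a4 := D.δ_gate (J := K) (fun j hj => hq' ▸ P_lng_mul_w0 E hj) (z := e)
      (D.δ_mem_par (x := x) (by rw [mem_R, hq]; exact lng_mem E K)
        (by rw [mem_R, e1]; exact mul_mem hLK (lng_mem E K)))
    rw [a3, hq', ← mul_assoc, mul_left_inj] at a4
    rw [mem_R, hL, mul_assoc, ← a4, ← mul_assoc, hK, one_mul]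
    exact lng_mem E _
  exact D.δ_mem_par (key y hry p hy hp hp') (key u (D.R_trans hry hyu) q hu hq hq')

theorem IsApt.eq_of_opp {D : Bld E C} {a a' : W → C} (ha : D.IsApt a) (ha' : D.IsApt a') {x : W} (h1 : a x = a' x)
    (h2 : a (x * w0 E) = a' (x * w0 E)) : a = a' := by
  funext t
  obtain ⟨t, rfl⟩ := (Group.mulLeft_bijective x).2 t
  have := len_mul_w0 E t⁻¹
  refine D.mid_unique (x := a x) (z := a (x * w0 E)) (v := t) (w := t⁻¹ * w0 E)
    (by rw [mul_inv_cancel_left, ← this, E.len_inv, add_comm]) ?_ ?_ ?_ ?_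
  · rw [ha]; group
  · rw [ha]; group
  · rw [h1, ha']; group
  · rw [h2, ha']; group

theorem act_of_opp {a : W → C} (ha : D.IsApt a) {g : Equiv.Perm C} (hg : g ∈ D.Aut) {v x : W}
    (h1 : g (a x) = a (v * x)) (h2 : g (a (x * w0 E)) = a (v * x * w0 E)) : D.Act a g v := 
  ⟨hg, congrFun (IsApt.eq_of_opp (a := fun x => g (a x)) (fun x y => (hg _ _).trans (ha x y)) (ha.mul v)
    h1 (h2.trans (by rw [mul_assoc])))⟩

end Bld

end CfsgLib.Tits
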