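import Cfsg.Agent.Lib.Tits.Defs
import Cfsg.Agent.Lib.FH.Main

/-!
# Package COXF: longest elements, opposition, roots (see `plans/TITS.md`)
-/

set_option autoImplicit false

namespace CfsgLib.Tits
open CfsgLib.BN

variable {B W : Type*} [Group W] (E : ExchSys B W)

include E in
theorem finite_nodes [Finite W] : Finite B := Finite.of_injective E.s E.inj

theorem mat_comm (i j : B) : E.mat i j = E.mat j i := E.mat.symmetric i j

theorem mat_self (i : B) : E.mat i i = 1 := E.mat.diagonal i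

theorem ne_of_mat {i j : B} (h : E.mat i j ≠ 1) : i ≠ j := fun e => h (e ▸ mat_self E i)

theorem mat_eq_two_iff {i j : B} (h : i ≠ j) : E.mat i j = 2 ↔ E.s i * E.s j = E.s j * E.s i := by
  have e : (E.s i * E.s j) ^ 2 = 1 ↔ E.s i * E.s j = E.s j * E.s i := by
    rw [pow_two, ← eq_inv_iff_mul_eq_one, mul_inv_rev, E.s_inv, E.s_inv]
  rw [E.mat_apply, ← e]
  exact ⟨fun h2 => h2 ▸ pow_orderOf_eq_one _, fun h2 => orderOf_eq_prime h2 fun h1 =>
    h (E.inj (by rw [eq_inv_of_mul_eq_one_left h1, E.s_inv]))⟩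

theorem braid_wp (i j : B) : E.wp (alt i j (E.mat i j)) = E.wp (alt j i (E.mat i j)) :=
  (alt_prod_eq_iff E.s i j (E.sq i) (E.sq j) _).2 (pow_orderOf_eq_one _)

theorem braid3 {i j : B} (h : E.mat i j = 3) : E.s i * E.s j * E.s i = E.s j * E.s i * E.s j := by
  have e := braid_wp E i j
  rw [h] at e
  simpa [alt_succ, ExchSys.wp, mul_assoc] using e

theorem braid4 {i j : B} (h : E.mat i j = 4) :
    E.s i * E.s j * E.s i * E.s j = E.s j * E.s i * E.s j * E.s i := by
  have e := braid_wp E i j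
  rw [h] at e
  simpa [alt_succ, ExchSys.wp, mul_assoc] using e

theorem P_s {i j : B} (h : i ≠ j) : E.P i (E.s j) := by
  by_contra e
  exact h (E.mem_of_not_P (J := {j}) (E.s_mem_par rfl) e)

theorem P_s_s' {i j : B} (h : 3 ≤ E.mat i j) : E.P i (E.s j * E.s i) := by
  simpa [alt, ExchSys.wp] using (FH.red_alt E 3 i j h).P_cons

theorem P_s_s [Finite W] {i j : B} (h : i ≠ j) (h2 : E.mat i j ≠ 2) : E.P i (E.s j * E.s i) := by
  have h0 : E.mat i j ≠ 0 := (orderOf_pos _).ne'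
  have h1 : E.mat i j ≠ 1 := E.mat.off_diagonal i j h
  exact P_s_s' E (by omega)

theorem P_s_s_s {i j : B} (h : E.mat i j = 4) : E.P i (E.s j * E.s i * E.s j) := by
  simpa [alt, ExchSys.wp, mul_assoc] using (FH.red_alt E 4 i j h.ge).P_cons

theorem P_s_mul_iff {i : B} {w : W} : E.P i (E.s i * w) ↔ ¬ E.P i w :=   ⟨fun h h' => E.P_not i w h' h, fun h => by
    have := E.len_lt_of_not_P h
    rw [E.P_iff, E.s_mul_s_mul]
    omega⟩

theorem P_of_not_mem {J : Set B} {w : W} (hw : w ∈ E.par J) {i : B} (hi : i ∉ J) : E.P i w := by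
  by_contra e
  exact hi (E.mem_of_not_P hw e)

theorem min_inv_iff {J : Set B} {d : W} : E.Min J d⁻¹ ↔ ∀ j ∈ J, E.P j d :=
  forall₂_congr fun _ _ => ExchSys.P_iff_inv.symm

/-- lengths add for `v ∈ W_J` and `d` without left descent in `J` -/
theorem len_mul_of_P {J : Set B} {v d : W} (hv : v ∈ E.par J) (hd : ∀ j ∈ J, E.P j d) :
    E.len (v * d) = E.len v + E.len d := by
  rw [← E.len_inv, mul_inv_rev, ((min_inv_iff E).2 hd).len_mul (inv_mem hv), E.len_inv, E.len_inv, add_comm]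

theorem exists_left_min (J : Set B) (w : W) : ∃ v ∈ E.par J, ∃ d, (∀ j ∈ J, E.P j d) ∧ w = v * d := by
  obtain ⟨a', ha', b, hb, -, h⟩ := ExchSys.exists_dc_min (E := E) ∅ J w
  rw [E.par_empty, Subgroup.mem_bot] at hb
  rw [hb, mul_one] at h
  exact ⟨a'⁻¹, inv_mem ha', _, (min_inv_iff E).1 h, (inv_mul_cancel_left _ _).symm⟩

theorem exists_right_min (J : Set B) (w : W) : ∃ d, ∃ v ∈ E.par J, E.Min J d ∧ w = d * v := by
  obtain ⟨v, hv, d, hd, e⟩ := exists_left_min E J w⁻¹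
  exact ⟨d⁻¹, v⁻¹, inv_mem hv, (min_inv_iff E).2 hd, by rw [← mul_inv_rev, ← e, inv_inv]⟩

theorem left_min_unique {J : Set B} {v d d' : W} (hv : v ∈ E.par J) (hd : ∀ j ∈ J, E.P j d)
    (hd' : ∀ j ∈ J, E.P j d') (h : d' = v * d) : v = 1 := by
  refine inv_eq_one.1 (((min_inv_iff E).2 hd).eq_one (inv_mem hv) ?_)
  rw [← mul_inv_rev, ← h]
  exact (min_inv_iff E).2 hd'

theorem P_mul_iff {J : Set B} {v d : W} (hv : v ∈ E.par J) (hd : ∀ j ∈ J, E.P j d) {j : B} (hj : j ∈ J) :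
    E.P j (v * d) ↔ E.P j v := by
  rw [E.P_iff, E.P_iff, ← mul_assoc, len_mul_of_P E hv hd, len_mul_of_P E (mul_mem (E.s_mem_par hj) hv) hd]
  omega

/-- otherwise the support of the conjugate is the support of `x` together with `u` -/
theorem red_conj {K : Set B} {u : B} (hu : u ∉ K) {l : List B} (hl : E.Red l) (hK : ∀ k ∈ l, k ∈ K)
    (h : E.s u * E.wp l ≠ E.wp l * E.s u) : E.Red (u :: l ++ [u]) := by
  have h1 : E.Red (l ++ [u]) := by
    simpa using (hl.reverse.cons (P_of_not_mem E (E.wp_mem_par fun k hk => hK k (List.mem_reverse.1 hk)) hu)).reverse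
  refine h1.cons ?_
  by_contra e
  rw [E.wp_concat] at e
  exact h (E.P_exch u u _ (P_of_not_mem E (E.wp_mem_par hK) hu) e)

theorem comm_of_conj {K : Set B} {u : B} (hu : u ∉ K) {x : W} (hx : x ∈ E.par K)
    (h : E.s u * x * E.s u ∈ E.par K) : E.s u * x = x * E.s u := by
  obtain ⟨l, hK, hl, rfl⟩ := E.mem_par_iff.1 hx
  by_contra e
  exact hu ((red_conj E hu hl hK e).mem_of_mem_par (by rwa [E.wp_concat, E.wp_cons]) u (by simp))

/-- a node outside `K` that conjugates `x ∈ W_K` into `W_K` commutes with the support of `x` -/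
theorem mem_par_of_conj {K : Set B} {u : B} (hu : u ∉ K) {x : W} (hx : x ∈ E.par K)
    (h : E.s u * x * E.s u ∈ E.par K) : x ∈ E.par {k | k ∈ K ∧ E.s u * E.s k = E.s k * E.s u} := by
  have e := comm_of_conj E hu hx h
  obtain ⟨l, hK, hl, rfl⟩ := E.mem_par_iff.1 hx
  clear hx h
  refine E.wp_mem_par ?_
  induction l with
  | nil => simp
  | cons k l ih =>
    have hk : k ∈ K := hK k (by simp)
    have h1 : ¬ E.P k (E.wp (u :: k :: l)) := fun h1 => by
      have h2 := E.len_of_P h1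
      have h3 := E.len_of_P (P_of_not_mem E (E.wp_mem_par hK) hu)
      have h4 := E.len_mul_s_le u (E.wp l)
      have h5 := hl.len_cons
      rw [E.wp_cons u, h3, e, E.wp_cons, mul_assoc, E.s_mul_s_mul] at h2
      omega
    obtain ⟨l1, j, l2, e1, e2⟩ := E.exch_of_not_P k _ h1
    have h2 : E.s u * E.s k = E.s k * E.s u := by
      rcases l1 with _ | ⟨u', l1⟩
      · obtain rfl : u = j := (List.cons.inj e1).1
        rw [E.wp_nil, mul_one, one_mul] at e2
        rw [e2]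
      · obtain ⟨rfl, e3⟩ := List.cons.inj e1
        refine comm_of_conj E hu (E.s_mem_par hk) ?_
        have h3 : E.wp l1 ∈ E.par K := E.wp_mem_par fun x hx => hK x (by rw [e3]; simp [hx])
        rw [E.wp_cons, mul_assoc (E.s u), ← inv_mul_eq_iff_eq_mul, E.s_inv, ← mul_assoc, ← mul_assoc,
          ← eq_mul_inv_iff_mul_eq] at e2
        rw [e2]
        exact mul_mem (mul_mem h3 (E.s_mem_par (hK j (by rw [e3]; simp)))) (inv_mem h3)
    rw [E.wp_cons, ← mul_assoc, h2, mul_assoc, mul_assoc, mul_right_inj] at e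
    exact List.forall_mem_cons.2 ⟨⟨hk, h2⟩, ih (fun x hx => hK x (by simp [hx])) hl.tail e⟩

/-! ### Roots -/

theorem mem_rt {w x : W} {i : B} : x ∈ rt E w i ↔ E.P i (w⁻¹ * x) := Iff.rfl

theorem mem_rt_one {x : W} {i : B} : x ∈ rt E 1 i ↔ E.P i x := by rw [mem_rt, inv_one, one_mul]

theorem self_mem_rt (w : W) (i : B) : w ∈ rt E w i := by rw [mem_rt, inv_mul_cancel]; exact E.P_one i

theorem mul_s_not_mem_rt (w : W) (i : B) : w * E.s i ∉ rt E w i := by
  rw [mem_rt, inv_mul_cancel_left, ← mul_one (E.s i)]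
  exact E.P_not i 1 (E.P_one i)

theorem mul_mem_rt {v w x : W} {i : B} : v * x ∈ rt E (v * w) i ↔ x ∈ rt E w i := by
  rw [mem_rt, mem_rt, mul_inv_rev, mul_assoc, inv_mul_cancel_left]

theorem rt_mul_s (w : W) (i : B) : rt E (w * E.s i) i = (rt E w i)ᶜ := Set.ext fun x => by
  rw [Set.mem_compl_iff, mem_rt, mem_rt, mul_inv_rev, E.s_inv, mul_assoc, P_s_mul_iff]

/-- an edge that leaves the root lies on its wall -/
theorem refl_eq_of_wall {w x : W} {i j : B} (h1 : x ∈ rt E w i) (h2 : x * E.s j ∉ rt E w i) :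
    x * E.s j * x⁻¹ = w * E.s i * w⁻¹ := by
  rw [mem_rt, ← mul_assoc] at h2
  have e := E.P_exch i j _ h1 h2
  calc x * E.s j * x⁻¹ = w * (w⁻¹ * x * E.s j) * x⁻¹ := by group
    _ = _ := by rw [← e]; group

theorem refl_mul_mem_rt {w x : W} {i : B} : w * E.s i * w⁻¹ * x ∈ rt E w i ↔ x ∉ rt E w i := by
  rw [mem_rt, mem_rt, ← P_s_mul_iff, mul_assoc, mul_assoc, inv_mul_cancel_left]

theorem P_mul_s_iff {i k : B} {y : W} (h : E.s i * y ≠ y * E.s k) : E.P i (y * E.s k) ↔ E.P i y := by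
  constructor <;> intro h1 <;> by_contra h2
  · have e := E.P_exch i k _ h1 (by rwa [E.mul_s_mul_s])
    rw [← mul_assoc] at e
    exact h (mul_right_cancel e)
  · exact h (E.P_exch i k _ h1 h2)

/-- a root is determined by its reflection and one of its chambers -/
theorem rt_eq_of_refl {v w : W} {i j : B} (h : w * E.s j * w⁻¹ = v * E.s i * v⁻¹) (hw : w ∈ rt E v i) :
    rt E w j = rt E v i := by
  have e : E.s i * (v⁻¹ * w) = v⁻¹ * w * E.s j := by
    calc E.s i * (v⁻¹ * w) = v⁻¹ * (v * E.s i * v⁻¹) * w := by group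
      _ = _ := by rw [← h]; group
  have key : ∀ y, E.P j y ↔ E.P i (v⁻¹ * w * y) := fun y => by
    induction y using E.induction_right with
    | h1 => exact iff_of_true (E.P_one j) (by rwa [mul_one])
    | hs k y ih =>
      have c : E.s i * (v⁻¹ * w * y) = v⁻¹ * w * y * E.s k ↔ E.s j * y = y * E.s k := by
        rw [← mul_assoc, e, mul_assoc (v⁻¹ * w), mul_assoc (v⁻¹ * w), mul_right_inj]
      rw [← mul_assoc]
      by_cases hc : E.s j * y = y * E.s k
      · rw [← c.2 hc, ← hc, P_s_mul_iff, P_s_mul_iff, ih]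
      · rw [P_mul_s_iff E hc, P_mul_s_iff E (mt c.1 hc), ih]
  ext x
  rw [mem_rt, mem_rt, key, mul_assoc, mul_inv_cancel_left]

theorem refl_eq_of_rt_eq {v w : W} {i j : B} (h : rt E w j = rt E v i) :
    w * E.s j * w⁻¹ = v * E.s i * v⁻¹ :=   refl_eq_of_wall E (h ▸ self_mem_rt E w j) (h ▸ mul_s_not_mem_rt E w j)

/-- a root is determined by its reflection and any of its chambers -/
theorem rt_eq_of_refl_of_mem {v w x : W} {i j : B} (h : w * E.s j * w⁻¹ = v * E.s i * v⁻¹)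
    (h1 : x ∈ rt E w j) (h2 : x ∈ rt E v i) : rt E w j = rt E v i := by
  refine rt_eq_of_refl E h ?_
  by_contra hn
  rw [rt_eq_of_refl E (v := v * E.s i) (i := i) (by rw [h, E.mul_s_mul_s, mul_inv_rev, E.s_inv, mul_assoc])
    (by rwa [rt_mul_s]), rt_mul_s] at h1
  exact h1 h2

theorem rt_mul_congr {v w : W} {i j : B} (h : rt E w j = rt E v i) (x : W) :
    rt E (x * w) j = rt E (x * v) i := Set.ext fun y => by
  rw [← mul_inv_cancel_left x y, mul_mem_rt, mul_mem_rt, h]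

theorem one_mem_rt_iff {w : W} {i : B} : (1 : W) ∈ rt E w i ↔ E.len w < E.len (w * E.s i) := by
  rw [mem_rt, mul_one, ExchSys.P_iff_inv, inv_inv]

/-- roots are convex -/
theorem mul_mem_rt_of_len {w x u v : W} {i : B} (hx : x ∈ rt E w i) (hy : x * u * v ∈ rt E w i)
    (h : E.len (u * v) = E.len u + E.len v) : x * u ∈ rt E w i := by
  by_contra hn
  rw [mem_rt, ← mul_assoc] at hn
  rw [mem_rt, ← mul_assoc, ← mul_assoc] at hy
  obtain ⟨u', l1, e1⟩ := ExchSys.exists_shorter hx u hn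
  obtain ⟨v', l2, e2⟩ := ExchSys.exists_shorter ((P_s_mul_iff E).2 hn) v
    (by rw [mul_assoc, P_s_mul_iff, not_not]; exact hy)
  rw [mul_assoc (E.s i), E.s_mul_s_mul, e1, mul_assoc _ u, mul_assoc _ u', mul_right_inj] at e2
  have := E.len_mul_le u' v'
  rw [← e2] at this
  omega

/-- if the wall cuts the residue `x W_J` then the reflection lies in `x W_J x⁻¹` -/
theorem refl_mem_par {w x v : W} {i : B} {J : Set B} (hv : v ∈ E.par J) (hx : x ∈ rt E w i)
    (h : x * v ∉ rt E w i) : x⁻¹ * (w * E.s i * w⁻¹) * x ∈ E.par J := by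
  rw [mem_rt, ← mul_assoc] at h
  refine ExchSys.par_induction_right (p := fun v => ¬ E.P i (w⁻¹ * x * v) → x⁻¹ * (w * E.s i * w⁻¹) * x ∈ E.par J)
    (fun h => absurd (by rwa [mul_one]) h) (fun v hv j hj ih h => ?_) hv h
  by_cases h1 : E.P i (w⁻¹ * x * v)
  · have e := E.P_exch i j _ h1 (by rwa [← mul_assoc] at h)
    rw [show x⁻¹ * (w * E.s i * w⁻¹) * x = x⁻¹ * w * (E.s i * (w⁻¹ * x * v)) * v⁻¹ by group, e,
      show x⁻¹ * w * (w⁻¹ * x * v * E.s j) * v⁻¹ = v * E.s j * v⁻¹ by group]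
    exact mul_mem (mul_mem hv (E.s_mem_par hj)) (inv_mem hv)
  · exact ih h1

theorem rt_two {i j : B} (h : E.mat i j = 2) (w : W) : rt E (w * E.s i) j = rt E w j := by
  have hn : i ≠ j := ne_of_mat E (by omega)
  refine rt_eq_of_refl E ?_ (by rw [mem_rt, inv_mul_cancel_left]; exact P_s E hn.symm)
  rw [mul_assoc w, (mat_eq_two_iff E hn).1 h]
  group

theorem rt_three {i j : B} (h : E.mat i j = 3) (w : W) : rt E (w * E.s i) j = rt E (w * E.s j) i := by
  refine rt_eq_of_refl E ?_ ?_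
  · simp only [mul_inv_rev, E.s_inv, ← mul_assoc, mul_left_inj]
    simp only [mul_assoc, mul_right_inj]
    simpa only [mul_assoc] using braid3 E h
  · rw [mem_rt, mul_inv_rev, mul_assoc, inv_mul_cancel_left, E.s_inv]
    exact P_s_s' E h.ge

theorem rt_three' {i j : B} (h : E.mat i j = 3) (w : W) : rt E (w * E.s i * E.s j) i = rt E w j := by
  refine rt_eq_of_refl E ?_ ?_
  · rw [mul_assoc w, mul_assoc w, braid3 E h, mul_inv_rev, mul_inv_rev, E.s_inv, E.s_inv]
    simp only [← mul_assoc, E.mul_s_mul_s]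
  · rw [mem_rt, mul_assoc, inv_mul_cancel_left]
    exact P_s_s' E (mat_comm E i j ▸ h.ge)

theorem rt_four {i j : B} (h : E.mat i j = 4) (w : W) :
    rt E (w * E.s i * E.s j) i = rt E (w * E.s j) i := by
  refine rt_eq_of_refl E ?_ ?_
  · have e := congrArg (fun x => w * x * E.s i * w⁻¹) (braid4 E h)
    simpa only [mul_inv_rev, E.s_inv, ← mul_assoc, E.mul_s_mul_s] using e
  · rw [mem_rt, mul_inv_rev, mul_assoc, mul_assoc w, inv_mul_cancel_left, E.s_inv, ← mul_assoc]
    exact P_s_s_s E h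

theorem pos_root_one {i : B} {w : W} (hw : w ∈ E.par {i}) (h : (1 : W) ∈ rt E w i) : w = 1 :=   (E.mem_par_singleton.1 hw).resolve_right fun e => by
    rw [e, mem_rt, mul_one, E.s_inv, ← mul_one (E.s i)] at h
    exact E.P_not i 1 (E.P_one i) h

theorem conj_mem_of_closed {J : Set B} {T : Set W} (h : ∀ j ∈ J, ∀ t ∈ T, E.s j * t * E.s j ∈ T) {w t : W}
    (hw : w ∈ E.par J) (ht : t ∈ T) : w * t * w⁻¹ ∈ T := by
  have := ExchSys.par_induction_right (p := fun v => v⁻¹ * t * v ∈ T) (by simpa using ht)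
    (fun v _ j hj ih => by simpa only [mul_inv_rev, E.s_inv, mul_assoc] using h j hj _ ih) (inv_mem hw)
  rwa [inv_inv] at this

theorem one_mem_rt_s {i j : B} (h : i ≠ j) : (1 : W) ∈ rt E (E.s i) j := by
  rw [mem_rt, mul_one, E.s_inv]
  exact P_s E h.symm

theorem pos_root_two {i j k : B} (h : E.mat i j = 2) {w : W} (hw : w ∈ E.par {i, j}) (hk : k ∈ ({i, j} : Set B))
    (h1 : (1 : W) ∈ rt E w k) : rt E w k = rt E 1 i ∨ rt E w k = rt E 1 j := by
  have e := (mat_eq_two_iff E (ne_of_mat E (by omega))).1 h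
  have := conj_mem_of_closed E (T := {E.s i, E.s j}) (t := E.s k) (J := {i, j}) (by
    rintro _ (rfl | rfl) _ (rfl | rfl)
    · simp [E.sq]
    · simp [e, E.mul_s_mul_s]
    · simp [← e, E.mul_s_mul_s]
    · simp [E.sq]) hw (by rcases hk with rfl | rfl <;> simp)
  exact this.imp (fun e => rt_eq_of_refl_of_mem E (by simpa using e) h1 (self_mem_rt E 1 i))
    fun e => rt_eq_of_refl_of_mem E (by simpa using e) h1 (self_mem_rt E 1 j)

theorem pos_root_three {i j k : B} (h : E.mat i j = 3) {w : W} (hw : w ∈ E.par {i, j}) (hk : k ∈ ({i, j} : Set B))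
    (h1 : (1 : W) ∈ rt E w k) : rt E w k = rt E 1 i ∨ rt E w k = rt E (E.s i) j ∨ rt E w k = rt E 1 j := by
  have e := braid3 E h
  have hn : i ≠ j := ne_of_mat E (by omega)
  have := conj_mem_of_closed E (T := {E.s i, E.s i * E.s j * E.s i, E.s j}) (t := E.s k) (J := {i, j}) (by
    rintro _ (rfl | rfl) _ (rfl | rfl | rfl)
    · simp [E.sq]
    · simp [← mul_assoc, E.sq, E.mul_s_mul_s]
    · simp
    · simp [e]
    · simp [e, ← mul_assoc, E.sq, E.mul_s_mul_s]
    · simp [E.sq]) hw (by rcases hk with rfl | rfl <;> simp)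
  exact this.imp (fun e => rt_eq_of_refl_of_mem E (by simpa using e) h1 (self_mem_rt E 1 i)) (Or.imp
    (fun e => rt_eq_of_refl_of_mem E (by rwa [E.s_inv]) h1 (one_mem_rt_s E hn))
    fun e => rt_eq_of_refl_of_mem E (by simpa using e) h1 (self_mem_rt E 1 j))

theorem pos_root_four {i j k : B} (h : E.mat i j = 4) {w : W} (hw : w ∈ E.par {i, j}) (hk : k ∈ ({i, j} : Set B))
    (h1 : (1 : W) ∈ rt E w k) :
    rt E w k = rt E 1 i ∨ rt E w k = rt E (E.s i) j ∨ rt E w k = rt E (E.s j) i ∨ rt E w k = rt E 1 j := by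
  have e := braid4 E h
  have hn : i ≠ j := ne_of_mat E (by omega)
  have := conj_mem_of_closed E (T := {E.s i, E.s i * E.s j * E.s i, E.s j * E.s i * E.s j, E.s j}) (t := E.s k)
    (J := {i, j}) (by
      rintro _ (rfl | rfl) _ (rfl | rfl | rfl | rfl)
      · simp [E.sq]
      · simp [← mul_assoc, E.sq, E.mul_s_mul_s]
      · simp [← mul_assoc, e, E.mul_s_mul_s]
      · simp
      · simp
      · simp [← mul_assoc, ← e, E.mul_s_mul_s]
      · simp [← mul_assoc, E.sq, E.mul_s_mul_s]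
      · simp [E.sq]) hw (by rcases hk with rfl | rfl <;> simp)
  exact this.imp (fun e => rt_eq_of_refl_of_mem E (by simpa using e) h1 (self_mem_rt E 1 i)) (Or.imp
    (fun e => rt_eq_of_refl_of_mem E (by rwa [E.s_inv]) h1 (one_mem_rt_s E hn)) (Or.imp
    (fun e => rt_eq_of_refl_of_mem E (by rwa [E.s_inv]) h1 (one_mem_rt_s E hn.symm))
    fun e => rt_eq_of_refl_of_mem E (by simpa using e) h1 (self_mem_rt E 1 j)))

/-! ### Longest elements -/

theorem len_of_not_P {J : Set B} {x : W} (hx : ∀ j ∈ J, ¬ E.P j x) {v : W} (hv : v ∈ E.par J) :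
    E.len x = E.len v + E.len (v⁻¹ * x) := by
  induction v using E.induction_red_left with
  | h1 => simp
  | hs i v hP ih =>
    have hi := E.mem_of_not_P hv (E.P_not i v hP)
    replace ih := ih ((Subgroup.mul_mem_cancel_left _ (E.s_mem_par hi)).1 hv)
    obtain ⟨y, h1, h2⟩ := ExchSys.exists_shorter hP (v⁻¹ * x) (by simpa using hx i hi)
    have h3 : (E.s i * v)⁻¹ * x = y := by
      rw [mul_inv_cancel_left] at h2
      rw [mul_inv_rev, E.s_inv, mul_assoc, h2, inv_mul_cancel_left]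
    have h4 := E.len_mul_le (E.s i * v) ((E.s i * v)⁻¹ * x)
    rw [mul_inv_cancel_left] at h4
    have h5 := E.len_of_P hP
    rw [h3] at h4 ⊢
    omega

variable [Finite W]

theorem lng_spec (J : Set B) : lng E J ∈ E.par J ∧ ∀ j ∈ J, ¬ E.P j (lng E J) := by
  have h : ∃ x ∈ E.par J, ∀ j ∈ J, ¬ E.P j x := by
    obtain ⟨x, hx, hm⟩ := Set.exists_max_image (E.par J : Set W) E.len (Set.toFinite _) ⟨1, one_mem _⟩
    exact ⟨x, hx, fun j hj e => (hm _ (mul_mem (E.s_mem_par hj) hx)).not_gt (E.P_iff.1 e)⟩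
  rw [lng, dif_pos h]
  exact h.choose_spec

theorem lng_mem (J : Set B) : lng E J ∈ E.par J := (lng_spec E J).1

theorem not_P_lng {J : Set B} {j : B} (hj : j ∈ J) : ¬ E.P j (lng E J) := (lng_spec E J).2 j hj

theorem eq_lng {J : Set B} {x : W} (hx : x ∈ E.par J) (h : ∀ j ∈ J, ¬ E.P j x) : x = lng E J := by
  have h1 := len_of_not_P E h (lng_mem E J)
  have h2 := len_of_not_P E (lng_spec E J).2 hx
  exact inv_mul_eq_one.1 (E.len_eq_zero.1 (by omega : E.len (x⁻¹ * lng E J) = 0))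

theorem len_lng {J : Set B} {v : W} (hv : v ∈ E.par J) :
    E.len (lng E J) = E.len v + E.len (v⁻¹ * lng E J) := len_of_not_P E (lng_spec E J).2 hv

theorem lng_inv (J : Set B) : (lng E J)⁻¹ = lng E J := by
  refine eq_lng E (inv_mem (lng_mem E J)) fun j hj h => ?_
  have h1 := len_lng E (mul_mem (lng_mem E J) (E.s_mem_par hj))
  rw [ExchSys.P_iff_inv, inv_inv] at h
  omega

theorem lng_mul_self (J : Set B) : lng E J * lng E J = 1 := by
  nth_rewrite 1 [← lng_inv]
  exact inv_mul_cancel _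

theorem len_mul_lng {J : Set B} {v : W} (hv : v ∈ E.par J) :
    E.len (v * lng E J) + E.len v = E.len (lng E J) := by
  rw [len_lng E (inv_mem hv), inv_inv, E.len_inv, add_comm]

theorem len_lng_mul {J : Set B} {v : W} (hv : v ∈ E.par J) :
    E.len (lng E J * v) + E.len v = E.len (lng E J) := by
  rw [len_lng E hv, ← E.len_inv (lng E J * v), mul_inv_rev, lng_inv, add_comm]

theorem eq_lng_of_len {J : Set B} {v : W} (hv : v ∈ E.par J) (h : E.len (lng E J) ≤ E.len v) : v = lng E J := by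
  have h1 := len_lng E hv
  exact inv_mul_eq_one.1 (E.len_eq_zero.1 (by omega : E.len (v⁻¹ * lng E J) = 0))

theorem P_mul_lng {J : Set B} {v : W} (hv : v ∈ E.par J) {j : B} (hj : j ∈ J) :
    E.P j (v * lng E J) ↔ ¬ E.P j v := by
  have h1 := len_mul_lng E hv
  have h2 := len_mul_lng E (mul_mem (E.s_mem_par hj) hv)
  have h3 := E.len_s_mul j v
  rw [E.P_iff, E.P_iff, ← mul_assoc]
  omega

theorem len_conj_lng {J : Set B} {v : W} (hv : v ∈ E.par J) : E.len (lng E J * v * lng E J) = E.len v := by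
  have h1 := len_mul_lng E (mul_mem (lng_mem E J) hv)
  have h2 := len_lng_mul E hv
  omega

theorem lng_conj_conj (J : Set B) (x : W) : lng E J * (lng E J * x * lng E J) * lng E J = x := by
  rw [← mul_assoc, ← mul_assoc, lng_mul_self, one_mul, mul_assoc, lng_mul_self, mul_one]

theorem lng_conj_mul (J : Set B) (x y : W) :
    lng E J * (x * y) * lng E J = lng E J * x * lng E J * (lng E J * y * lng E J) := by
  simp only [mul_assoc]
  rw [← mul_assoc (lng E J) (lng E J), lng_mul_self, one_mul]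

theorem exists_conj_lng {J : Set B} {j : B} (hj : j ∈ J) : ∃ k ∈ J, E.s k = lng E J * E.s j * lng E J := by
  have h1 := len_conj_lng E (E.s_mem_par hj)
  obtain ⟨l, hl, hr, e⟩ := E.mem_par_iff.1 (mul_mem (mul_mem (lng_mem E J) (E.s_mem_par hj)) (lng_mem E J))
  rw [ExchSys.Red, e, h1, E.len_s] at hr
  obtain ⟨k, rfl⟩ := List.length_eq_one_iff.1 hr.symm
  exact ⟨k, hl k (by simp), (E.wp_singleton k).symm.trans e⟩

theorem conj_par {K L L' : Set B} (h : L ⊆ K) (h1 : ∀ k ∈ L', ∃ l ∈ L, E.s k = lng E K * E.s l * lng E K)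
    (h2 : ∀ l ∈ L, ∃ k ∈ L', E.s k = lng E K * E.s l * lng E K) :
    (∀ x, x ∈ E.par L' ↔ lng E K * x * lng E K ∈ E.par L) ∧ lng E L' = lng E K * lng E L * lng E K := by
  have key : ∀ {A A' : Set B}, (∀ l ∈ A, ∃ k ∈ A', E.s k = lng E K * E.s l * lng E K) →
      ∀ x ∈ E.par A, lng E K * x * lng E K ∈ E.par A' := fun {A A'} h x hx =>
    ExchSys.par_induction_right (p := fun x => lng E K * x * lng E K ∈ E.par A')
      (by rw [mul_one, lng_mul_self]; exact one_mem _) (fun v _ j hj ih => by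
        obtain ⟨k, hk, e⟩ := h j hj
        rw [lng_conj_mul, ← e]
        exact mul_mem ih (E.s_mem_par hk)) hx
  refine ⟨fun x => ⟨key (fun k hk => ?_) x, fun hx => lng_conj_conj E K x ▸ key h2 _ hx⟩,
    (eq_lng E (key h2 _ (lng_mem E L)) fun k hk hP => ?_).symm⟩
  · obtain ⟨l, hl, e⟩ := h1 k hk
    exact ⟨l, hl, by rw [e, lng_conj_conj]⟩
  · obtain ⟨l, hl, e⟩ := h1 k hk
    have hL := E.par_mono h (lng_mem E L)
    rw [E.P_iff, e, ← lng_conj_mul, len_conj_lng E hL, len_conj_lng E (mul_mem (E.s_mem_par (h hl)) hL),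
      ← E.P_iff] at hP
    exact not_P_lng E hl hP

/-- conjugation of a parabolic subgroup `W_L ≤ W_K` by the longest element of `W_K` -/
theorem exists_conj_par {K L : Set B} (h : L ⊆ K) : ∃ L' ⊆ K,
    (∀ x, x ∈ E.par L' ↔ lng E K * x * lng E K ∈ E.par L) ∧ lng E L' = lng E K * lng E L * lng E K := by
  refine ⟨{k | ∃ l ∈ L, E.s k = lng E K * E.s l * lng E K}, ?_, conj_par E h (fun k hk => hk) fun l hl => ?_⟩
  · rintro k ⟨l, hl, e⟩
    exact E.s_mem_par_iff.1 (e ▸ mul_mem (mul_mem (lng_mem E K) (E.s_mem_par (h hl))) (lng_mem E K))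
  · obtain ⟨k, -, e⟩ := exists_conj_lng E (h hl)
    exact ⟨k, ⟨l, hl, e⟩, e⟩

theorem lng_singleton (i : B) : lng E {i} = E.s i :=   (eq_lng E (J := {i}) (E.s_mem_par rfl) fun j hj h =>
    E.P_not j 1 (E.P_one j) (by rw [mul_one]; exact hj ▸ h)).symm

theorem lng_pair {i j : B} (h : i ≠ j) : lng E {i, j} = E.wp (alt i j (E.mat i j)) := by
  have key : ∀ p q, ¬ E.P p (E.wp (alt p q (E.mat p q))) := fun p q => by
    have hr := FH.red_alt E (E.mat p q) p q le_rfl
    obtain ⟨n, hn⟩ := Nat.exists_eq_succ_of_ne_zero (orderOf_pos (E.s p * E.s q)).ne'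
    rw [E.mat_apply, hn] at hr ⊢
    exact hr.not_P_cons
  have _ := h
  refine (eq_lng E (E.wp_mem_par fun k hk => mem_alt hk) ?_).symm
  rintro _ (rfl | rfl)
  · exact key _ _
  · rw [braid_wp, mat_comm]
    exact key _ _

theorem lng_two {i j : B} (h : E.mat i j = 2) : lng E {i, j} = E.s i * E.s j := by
  rw [lng_pair E (ne_of_mat E (by omega)), h]
  simp [alt_succ, ExchSys.wp, mul_assoc]

theorem lng_three {i j : B} (h : E.mat i j = 3) : lng E {i, j} = E.s i * E.s j * E.s i := by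
  rw [lng_pair E (ne_of_mat E (by omega)), h]
  simp [alt_succ, ExchSys.wp, mul_assoc]

theorem lng_four {i j : B} (h : E.mat i j = 4) : lng E {i, j} = E.s i * E.s j * E.s i * E.s j := by
  rw [lng_pair E (ne_of_mat E (by omega)), h]
  simp [alt_succ, ExchSys.wp, mul_assoc]

omit [Finite W] in
theorem mem_par_univ (v : W) : v ∈ E.par Set.univ := E.par_univ ▸ Subgroup.mem_top v

theorem not_P_w0 (i : B) : ¬ E.P i (w0 E) := not_P_lng E (Set.mem_univ i)

theorem w0_inv : (w0 E)⁻¹ = w0 E := lng_inv E _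

theorem w0_mul_self : w0 E * w0 E = 1 := lng_mul_self E _

theorem len_mul_w0 (v : W) : E.len (v * w0 E) + E.len v = E.len (w0 E) := len_mul_lng E (mem_par_univ E v)

theorem len_w0_mul (v : W) : E.len (w0 E * v) + E.len v = E.len (w0 E) := len_lng_mul E (mem_par_univ E v)

theorem P_mul_w0 {i : B} {v : W} : E.P i (v * w0 E) ↔ ¬ E.P i v := P_mul_lng E (mem_par_univ E v) (Set.mem_univ i)

theorem mul_w0_mem_rt {w x : W} {i : B} : x * w0 E ∈ rt E w i ↔ x ∉ rt E w i := by
  rw [mem_rt, mem_rt, ← mul_assoc, P_mul_w0]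

theorem s_op (i : B) : E.s (op E i) = w0 E * E.s i * w0 E := by
  have h : ∃ j, E.s j = w0 E * E.s i * w0 E :=
    let ⟨k, _, e⟩ := exists_conj_lng E (Set.mem_univ i); ⟨k, e⟩
  rw [op, dif_pos h]
  exact h.choose_spec

theorem op_op (i : B) : op E (op E i) = i := E.inj (by rw [s_op, s_op]; exact lng_conj_conj E _ _)

theorem s_mul_w0 (i : B) : E.s i * w0 E = w0 E * E.s (op E i) := by
  rw [s_op, ← mul_assoc, ← mul_assoc, w0_mul_self, one_mul]

theorem conj_op (J : Set B) : (∀ x, x ∈ E.par (op E '' J) ↔ w0 E * x * w0 E ∈ E.par J) ∧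
    lng E (op E '' J) = w0 E * lng E J * w0 E :=
  conj_par E (Set.subset_univ J) (by rintro _ ⟨l, hl, rfl⟩; exact ⟨l, hl, s_op E l⟩)
    fun l hl => ⟨_, ⟨l, hl, rfl⟩, s_op E l⟩

theorem mem_par_op {J : Set B} {x : W} : x ∈ E.par (op E '' J) ↔ w0 E * x * w0 E ∈ E.par J :=   (conj_op E J).1 x

theorem lng_op (J : Set B) : lng E (op E '' J) = w0 E * lng E J * w0 E := (conj_op E J).2

omit [Finite W] in
theorem op_pair (i j : B) : op E '' {i, j} = {op E i, op E j} := Set.image_pair _ i j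

/-- `w_J w₀` has no left descent in `J` -/
theorem P_lng_mul_w0 {J : Set B} {j : B} (hj : j ∈ J) : E.P j (lng E J * w0 E) := (P_mul_w0 E).2 (not_P_lng E hj)

/-- `w_J w₀` has no right descent in the opposite set -/
theorem P_w0_mul_lng {J : Set B} {j : B} (hj : j ∈ op E '' J) : E.P j (w0 E * lng E J) := by
  have h := P_lng_mul_w0 E hj
  rwa [lng_op, mul_assoc, w0_mul_self, mul_one] at h

end CfsgLib.Tits
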