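import Mathlib
import Cfsg.Prelude.Def_LieExceptional
import Cfsg.Agent.Lib.BN.Steinberg
import Cfsg.Agent.Lib.BN.Matsumoto

/-!
# Spherical buildings of rank at least three: definitions (project TITS, see `plans/TITS.md`)
-/

set_option autoImplicit false

namespace CfsgLib.Tits
open Cfsg CfsgLib.BN
open scoped commutatorElement

universe u

/-! ### Coxeter groups -/

section Cox
variable {B W : Type*} [Group W] (E : ExchSys B W)

/-- the root `w α_i` as a half of the Coxeter complex -/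
def rt (w : W) (i : B) : Set W := {x | E.P i (w⁻¹ * x)}

open Classical in
/-- the longest element of `W_J` -/
noncomputable def lng (J : Set B) : W :=
  if h : ∃ x ∈ E.par J, ∀ j ∈ J, ¬ E.P j x then h.choose else 1

/-- the longest element of `W` -/
noncomputable def w0 : W := lng E Set.univ

open Classical in
/-- the opposition involution of the nodes -/
noncomputable def op (i : B) : B := if h : ∃ j, E.s j = w0 E * E.s i * w0 E then h.choose else i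

end Cox

/-- the properties of a connected spherical diagram of rank at least three that are used -/
structure Dia {B : Type*} (m : B → B → ℕ) : Prop where
  mem : ∀ i j, i ≠ j → m i j = 2 ∨ m i j = 3 ∨ m i j = 4
  tri : ∀ i j k, i ≠ j → j ≠ k → i ≠ k → m i j ≠ 2 → m j k ≠ 2 → m i k = 2
  four : ∀ i j k, m i j = 4 → k ≠ i → k ≠ j → m j k ≠ 2 → m j k = 3
  three : ∀ i, ∃ j k, i ≠ j ∧ j ≠ k ∧ i ≠ k ∧ m i j ≠ 2 ∧ (m j k ≠ 2 ∨ m i k ≠ 2)

/-- the nodes outside `I` can be attached one after the other by simple edges -/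
def Tree {B : Type*} (m : B → B → ℕ) (I : Set B) : Prop :=
  ∃ ρ : B → ℕ, (∀ i, i ∈ I ↔ ρ i = 0) ∧
    ∀ j, j ∉ I → ∃ i, ρ i < ρ j ∧ m i j = 3 ∧ ∀ k, k ≠ j → k ≠ i → ρ k ≤ ρ j → m k j = 2

/-- type `A` -/
def mA (i j : ℕ) : ℕ := if i = j then 1 else if i + 1 = j ∨ j + 1 = i then 3 else 2

/-- type `B_n`: the double edge joins the nodes `n - 2`, `n - 1` -/
def mB (n i j : ℕ) : ℕ :=
  if i = j then 1 else if i + 1 = j ∨ j + 1 = i then (if i + j + 3 = 2 * n then 4 else 3) else 2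

/-- type `D_n`: the nodes `n - 2`, `n - 1` are joined to `n - 3` -/
def mD (n i j : ℕ) : ℕ :=
  if i = j then 1 else if (i + 1 = j ∧ j + 1 < n) ∨ (j + 1 = i ∧ i + 1 < n) ∨ (i + 3 = n ∧ j + 1 = n) ∨
    (j + 3 = n ∧ i + 1 = n) then 3 else 2

/-- type `E`: edges `0 - 2`, `1 - 3`, `2 - 3 - 4 - ...` -/
def mE (i j : ℕ) : ℕ :=
  if i = j then 1 else if (i = 0 ∧ j = 2) ∨ (i = 2 ∧ j = 0) ∨ (i = 1 ∧ j = 3) ∨ (i = 3 ∧ j = 1) ∨
    (2 ≤ i ∧ i + 1 = j) ∨ (2 ≤ j ∧ j + 1 = i) then 3 else 2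

/-- type `F₄` -/
def mF (i j : ℕ) : ℕ :=
  if i = j then 1 else if i + 1 = j ∨ j + 1 = i then (if i + j = 3 then 4 else 3) else 2

/-- the diagram `m` is the standard diagram `M` on `n` nodes -/
def IsType {B : Type*} (m : B → B → ℕ) (n : ℕ) (M : ℕ → ℕ → ℕ) : Prop :=
  ∃ e : B ≃ Fin n, ∀ i j, m i j = M (e i) (e j)

/-- the Gram matrix of the diagram is positive definite -/
def PD {B : Type*} [Fintype B] (m : B → B → ℕ) : Prop :=
  ∀ v : B → ℝ, v ≠ 0 → 0 < ∑ i, ∑ j, v i * v j * (-2 * Real.cos (Real.pi / m i j))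

/-! ### Buildings -/

/-- a thick building with Weyl distance `δ` -/
structure Bld {B W : Type*} [Group W] (E : ExchSys B W) (C : Type*) where
  δ : C → C → W
  δ_self : ∀ x, δ x x = 1
  eq_of_δ : ∀ x y, δ x y = 1 → x = y
  δ_symm : ∀ x y, δ y x = (δ x y)⁻¹
  δ_or : ∀ i x y z, δ x y = E.s i → δ x z = E.s i * δ y z ∨ δ x z = δ y z
  δ_P : ∀ i x y z, δ x y = E.s i → E.P i (δ y z) → δ x z = E.s i * δ y z
  apt : ∀ x y, ∃ a : W → C, (∀ v w, δ (a v) (a w) = v⁻¹ * w) ∧ a 1 = x ∧ a (δ x y) = y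
  thick : ∀ i x y z, ∃ u, δ x u ∈ E.par {i} ∧ u ≠ y ∧ u ≠ z

namespace Bld
variable {B W : Type*} [Group W] {E : ExchSys B W} {C C' : Type*} (D : Bld E C) (D' : Bld E C')

/-- the residue of type `J` of `x` -/
def R (J : Set B) (x : C) : Set C := {z | D.δ x z ∈ E.par J}

/-- apartments -/
def IsApt (a : W → C) : Prop := ∀ v w, D.δ (a v) (a w) = v⁻¹ * w

/-- the group of type preserving automorphisms -/
def Aut : Subgroup (Equiv.Perm C) where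
  carrier := {g | ∀ x y, D.δ (g x) (g y) = D.δ x y}
  mul_mem' {g h} hg hh x y := (hg _ _).trans (hh x y)
  one_mem' _ _ := rfl
  inv_mem' {g} hg x y := by simpa using (hg (g⁻¹ x) (g⁻¹ y)).symm

/-- the root group of the root `α` of the apartment `a` -/
def UG (a : W → C) (α : Set W) : Subgroup (Equiv.Perm C) where
  carrier := {g | g ∈ D.Aut ∧ (∀ x ∈ α, g (a x) = a x) ∧
    ∀ x i, x ∈ α → x * E.s i ∈ α → ∀ z ∈ D.R {i} (a x), g z = z}
  mul_mem' {g h} hg hh := ⟨mul_mem hg.1 hh.1, fun x hx => by simp [hh.2.1 x hx, hg.2.1 x hx],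
    fun x i h1 h2 z hz => by simp [hh.2.2 x i h1 h2 z hz, hg.2.2 x i h1 h2 z hz]⟩
  one_mem' := ⟨one_mem _, fun _ _ => rfl, fun _ _ _ _ _ _ => rfl⟩
  inv_mem' {g} hg := ⟨inv_mem hg.1, fun x hx => Equiv.Perm.inv_eq_iff_eq.2 (hg.2.1 x hx).symm,
    fun x i h1 h2 z hz => Equiv.Perm.inv_eq_iff_eq.2 (hg.2.2 x i h1 h2 z hz).symm⟩

/-- `n` acts on the apartment `a` as `v` -/
def Act (a : W → C) (n : Equiv.Perm C) (v : W) : Prop := n ∈ D.Aut ∧ ∀ x, n (a x) = a (v * x)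

/-- `f` and `g` agree on the panels of `x` -/
def Eq1 (x : C) (f g : C → C') : Prop := ∀ i, ∀ z ∈ D.R {i} x, f z = g z

/-- `f` and `g` agree on the rank two residues of `x` -/
def Eq2 (x : C) (f g : C → C') : Prop := ∀ i j, ∀ z ∈ D.R {i, j} x, f z = g z

/-- `f` and `g` agree on the rank two residues that contain the `k`-panel of `x` -/
def Adj (k : B) (x : C) (f g : C → C') : Prop := ∀ l, ∀ z ∈ D.R {k, l} x, f z = g z

/-- `f` maps each rank two residue of `x` isometrically onto the residue of `f x` -/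
def Loc (x : C) (f : C → C') : Prop := ∀ i j,
  (∀ u ∈ D.R {i, j} x, ∀ v ∈ D.R {i, j} x, D'.δ (f u) (f v) = D.δ u v) ∧
    ∀ u' ∈ D'.R {i, j} (f x), ∃ u ∈ D.R {i, j} x, f u = u'

/-- `f` preserves the distances to the opposite chamber `y ↦ y'` -/
def Compat (x : C) (f : C → C') (y : C) (y' : C') : Prop :=
  D.δ x y = w0 E ∧ ∀ i j, ∀ z ∈ D.R {i, j} x, D'.δ (f z) y' = D.δ z y

/-- opposite germs -/
def Op (x : C) (f : C → C') (y : C) (g : C → C') : Prop :=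
  D.δ x y = w0 E ∧ D.Loc D' x f ∧ D.Loc D' y g ∧
    ∀ i j, ∀ z ∈ D.R {i, j} x, ∀ u ∈ D.R {op E i, op E j} y, D'.δ (f z) (g u) = D.δ z u

/-- canonical germs with respect to the apartments `a`, `a'` -/
def Canon (a : W → C) (a' : W → C') (x : C) (f : C → C') : Prop :=
  D.Loc D' x f ∧ D'.δ (f x) (a' 1) = D.δ x (a 1) ∧
    D.Compat D' x f (a ((D.δ x (a 1))⁻¹ * w0 E)) (a' ((D.δ x (a 1))⁻¹ * w0 E))

/-- one step away from the base chamber -/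
def Step (a : W → C) (a' : W → C') (k : B) (x : C) (f : C → C') (x₁ : C) (f₁ : C → C') : Prop :=
  D.Canon D' a a' x f ∧ D.Canon D' a a' x₁ f₁ ∧ D.δ x₁ x = E.s k ∧ E.P k (D.δ x (a 1)) ∧ D.Adj k x f f₁

/-- a sequence of steps, in the order of the list -/
def Walk (a : W → C) (a' : W → C') (l : List B) (p q : C × (C → C')) : Prop :=
  List.rec (motive := fun _ => C × (C → C') → Prop) (fun p => p = q)
    (fun k _ ih p => ∃ r : C × (C → C'), D.Step D' a a' k p.1 p.2 r.1 r.2 ∧ ih r) l p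

theorem walk_nil {a : W → C} {a' : W → C'} {p q : C × (C → C')} : D.Walk D' a a' [] p q ↔ p = q := Iff.rfl

theorem walk_cons {a : W → C} {a' : W → C'} {k : B} {l : List B} {p q : C × (C → C')} :
    D.Walk D' a a' (k :: l) p q ↔ ∃ r : C × (C → C'), D.Step D' a a' k p.1 p.2 r.1 r.2 ∧ D.Walk D' a a' l r q :=
  Iff.rfl

/-- the group generated by the root groups of the apartment -/
def KK (a : W → C) : Subgroup (Equiv.Perm C) := ⨆ w, ⨆ i, D.UG a (rt E w i)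

/-- `K` is a strongly transitive group of automorphisms -/
def Str (a : W → C) (K : Subgroup (Equiv.Perm C)) : Prop :=
  K ≤ D.Aut ∧ (∀ v, ∃ n ∈ K, D.Act a n v) ∧
    ∀ z, D.δ (a 1) z = w0 E → ∃ b ∈ K, b (a 1) = a 1 ∧ b (a (w0 E)) = z

/-- `K` is split in characteristic `p`, with root groups of orders `q i` -/
def Spl (a : W → C) (K : Subgroup (Equiv.Perm C)) (p : ℕ) (q : B → ℕ) : Prop :=
  ∃ U ≤ K, IsPGroup p U ∧ (∀ u ∈ U, u (a 1) = a 1) ∧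
    (∀ g ∈ K, g (a 1) = a 1 → (∃ k, g ^ p ^ k = 1) → g ∈ U) ∧
    (∀ z, D.δ (a 1) z = w0 E → ∃ u ∈ U, u (a (w0 E)) = z) ∧ (∀ u ∈ U, u (a (w0 E)) = a (w0 E) → u = 1) ∧
    ∀ i, ∃ Y ≤ U, Y ≤ D.UG a (rt E 1 i) ∧ Nat.card Y = q i ∧
      ∀ z, D.δ (a 1) z = E.s i → ∃ y ∈ Y, y (a (E.s i)) = z

end Bld

/-- a finite building with a faithful strongly transitive action of `X` -/
structure Geo {B W : Type*} [Group W] (E : ExchSys B W) (X : Type u) [Group X] where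
  C : Type u
  fin : Finite C
  D : Bld E C
  a : W → C
  apt : D.IsApt a
  ρ : X →* Equiv.Perm C
  inj : Function.Injective ρ
  str : D.Str a ρ.range

/-- a split BN-pair in characteristic `p` with root groups of orders `q s` -/
def SplitBN {X : Type*} [Group X] (P : BNPair X) (p : ℕ) (q : P.S → ℕ) : Prop :=
  ∃ (U : Subgroup X) (Y : P.S → Subgroup X), IsPGroup p U ∧ U ≤ P.B ∧
    (∀ g ∈ P.B, (∃ k, g ^ p ^ k = 1) → g ∈ U) ∧ (∀ b ∈ P.B, ∃ u ∈ U, ∃ h ∈ P.B ⊓ P.N, b = u * h) ∧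
    (∀ (n : X) (hn : n ∈ P.N), (∀ s, ¬ (exch P).P s (cls P hn)) → ∀ u ∈ U, n⁻¹ * u * n ∈ P.B → u = 1) ∧
    (∀ s, Y s ≤ U) ∧ (∀ s, Nat.card (Y s) = q s) ∧
    (∀ s, ∀ g ∈ cell P (sW P s), ∃ y ∈ Y s, ∃ b ∈ P.B, g = y * s * b) ∧
    (∀ (s : P.S) (n : X) (hn : n ∈ P.N), (exch P).P s (cls P hn) → ∀ y ∈ Y s, n⁻¹ * y * n ∈ P.B) ∧
    ∀ (s t : P.S) (n : X) (hn : n ∈ P.N), (exch P).P s (cls P hn) → (exch P).P s (cls P hn * sW P t) →
      ∀ y ∈ Y s, ∀ g ∈ cell P (sW P t), g⁻¹ * (n⁻¹ * y * n) * g ∈ P.B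

/-- `X` has a split BN-pair with diagram `M` and root groups of orders `q i` -/
def BNMod (n : ℕ) (M : ℕ → ℕ → ℕ) (q : ℕ → ℕ) (X : Type*) [Group X] : Prop :=
  ∃ (P : BNPair X) (e : P.S ≃ Fin n) (p : ℕ), p.Prime ∧
    (∀ s t, orderOf (sW P s * sW P t) = M (e s) (e t)) ∧ SplitBN P p fun s => q (e s)

/-! ### Root group data -/

/-- a system of root groups in the group `A` -/
structure RG {B W : Type*} [Group W] (E : ExchSys B W) (A : Type*) [Group A] where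
  U : Set W → Subgroup A
  Act : A → W → Prop
  act_one : Act 1 1
  act_mul : ∀ {n n' v v'}, Act n v → Act n' v' → Act (n * n') (v * v')
  act_inv : ∀ {n v}, Act n v → Act n⁻¹ v⁻¹
  conj : ∀ {n v}, Act n v → ∀ w i, ∀ u ∈ U (rt E w i), n * u * n⁻¹ ∈ U (rt E (v * w) i)
  nontriv : ∀ w i, ∃ u ∈ U (rt E w i), u ≠ 1
  mu_ex : ∀ w i, ∀ u ∈ U (rt E w i), u ≠ 1 → ∃ p ∈ U (rt E (w * E.s i) i), ∃ q ∈ U (rt E (w * E.s i) i),
    Act (p * u * q) (w * E.s i * w⁻¹)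
  mu_uniq : ∀ w i, ∀ u ∈ U (rt E w i), u ≠ 1 → ∀ p ∈ U (rt E (w * E.s i) i), ∀ q ∈ U (rt E (w * E.s i) i),
    ∀ p' ∈ U (rt E (w * E.s i) i), ∀ q' ∈ U (rt E (w * E.s i) i),
      Act (p * u * q) (w * E.s i * w⁻¹) → Act (p' * u * q') (w * E.s i * w⁻¹) → p = p' ∧ q = q'
  sep : ∀ w i, ∀ u ∈ U (rt E w i), u ∈ Subgroup.closure
    {g | ∃ x j, w ∈ rt E x j ∧ w * E.s i ∈ rt E x j ∧ g ∈ U (rt E x j)} → u = 1
  comm_adj : ∀ w i j, i ≠ j → ∀ u ∈ U (rt E w i), ∀ v ∈ U (rt E (w * E.s i) j), Commute u v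
  comm3 : ∀ w i j, E.mat i j = 3 → ∀ u ∈ U (rt E w i), ∀ v ∈ U (rt E w j), ⁅u, v⁆ ∈ U (rt E (w * E.s i) j)
  comm13 : ∀ w i j, E.mat i j = 4 → ∀ u ∈ U (rt E w i), ∀ v ∈ U (rt E (w * E.s j) i),
    ⁅u, v⁆ ∈ U (rt E (w * E.s i) j)
  comm14 : ∀ w i j, E.mat i j = 4 → ∀ u ∈ U (rt E w i), ∀ v ∈ U (rt E w j),
    ∃ y ∈ U (rt E (w * E.s i) j), ∃ z ∈ U (rt E (w * E.s j) i), ⁅u, v⁆ = y * z

/-- `Γ` is the graph of an isomorphism from `H` to `H'` -/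
structure Gr {A A' : Type*} [Group A] [Group A'] (H : Subgroup A) (H' : Subgroup A')
    (Γ : Subgroup (A × A')) : Prop where
  le : Γ ≤ H.prod H'
  left : ∀ u ∈ H, ∃ u', (u, u') ∈ Γ
  right : ∀ u' ∈ H', ∃ u, (u, u') ∈ Γ
  inj_left : ∀ u', (1, u') ∈ Γ → u' = 1
  inj_right : ∀ u, (u, 1) ∈ Γ → u = 1

namespace RG
variable {B W : Type*} [Group W] {E : ExchSys B W} {A A' : Type*} [Group A] [Group A']
  (R : RG E A) (R' : RG E A')

/-- the root group of a fundamental root -/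
abbrev S (i : B) : Subgroup A := R.U (rt E 1 i)

/-- `m = μ(u)` for `u` in the root group of `w α_i` -/
def IsMu (w : W) (i : B) (u m : A) : Prop :=
  ∃ p ∈ R.U (rt E (w * E.s i) i), ∃ q ∈ R.U (rt E (w * E.s i) i), m = p * u * q ∧ R.Act m (w * E.s i * w⁻¹)

/-- the elements `μ(u)⁻¹ μ(v)` of the node `j` -/
def Tor (j : B) (h : A) : Prop :=
  ∃ u ∈ R.S j, ∃ v ∈ R.S j, ∃ m n, u ≠ 1 ∧ v ≠ 1 ∧ R.IsMu 1 j u m ∧ R.IsMu 1 j v n ∧ h = m⁻¹ * n

/-- the group generated by the root groups of the positive roots of `W_J` -/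
def UJ (J : Set B) : Subgroup A :=
  Subgroup.closure {g | ∃ w ∈ E.par J, ∃ k ∈ J, (1 : W) ∈ rt E w k ∧ g ∈ R.U (rt E w k)}

/-- `Γ` is the graph of an isomorphism of the groups `U_J` that preserves the root groups -/
structure Link (J : Set B) (Γ : Subgroup (A × A')) : Prop where
  le : Γ ≤ (R.UJ J).prod (R'.UJ J)
  left : ∀ w ∈ E.par J, ∀ k ∈ J, (1 : W) ∈ rt E w k → ∀ u ∈ R.U (rt E w k), ∃ u' ∈ R'.U (rt E w k), (u, u') ∈ Γ
  right : ∀ w ∈ E.par J, ∀ k ∈ J, (1 : W) ∈ rt E w k → ∀ u' ∈ R'.U (rt E w k), ∃ u ∈ R.U (rt E w k), (u, u') ∈ Γ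
  inj_left : ∀ u', (1, u') ∈ Γ → u' = 1
  inj_right : ∀ u, (u, 1) ∈ Γ → u = 1

/-- the isomorphisms `Γ₁`, `Γ₂` of the root groups of `i`, `j` extend to `U_{ij}` -/
def Edge (i j : B) (Γ₁ Γ₂ : Subgroup (A × A')) : Prop := ∃ Γ, R.Link R' {i, j} Γ ∧ Γ₁ ≤ Γ ∧ Γ₂ ≤ Γ

/-- isomorphic foundations -/
def Found : Prop :=
  ∃ g : B → Subgroup (A × A'), (∀ i, Gr (R.S i) (R'.S i) (g i)) ∧ ∀ i j, i ≠ j → R.Edge R' i j (g i) (g j)

/-- `Γ` is semilinear for the scalars induced by the node `j` -/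
def Semi (j : B) (Γ : Subgroup (A × A')) : Prop :=
  ∀ h, R.Tor j h → ∃ h', R'.Tor j h' ∧ ∀ u u', (u, u') ∈ Γ → (h * u * h⁻¹, h' * u' * h'⁻¹) ∈ Γ

/-- the second and the fourth root group of the double edge `i, j` commute -/
def Bit (i j : B) : Prop := ∀ y ∈ R.U (rt E (E.s i) j), ∀ z ∈ R.S j, Commute y z

end RG

/-- coordinates for a simple edge -/
structure A2C {B W : Type*} [Group W] {E : ExchSys B W} {A : Type*} [Group A] (R : RG E A) (i j : B)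
    (F : Type*) [Field F] where
  x₁ : F → A
  x₂ : F → A
  x₃ : F → A
  add₁ : ∀ a b, x₁ (a + b) = x₁ a * x₁ b
  add₂ : ∀ a b, x₂ (a + b) = x₂ a * x₂ b
  add₃ : ∀ a b, x₃ (a + b) = x₃ a * x₃ b
  inj₁ : Function.Injective x₁
  inj₂ : Function.Injective x₂
  inj₃ : Function.Injective x₃
  mem₁ : ∀ u, u ∈ R.S i ↔ ∃ t, u = x₁ t
  mem₂ : ∀ u, u ∈ R.U (rt E (E.s i) j) ↔ ∃ t, u = x₂ t
  mem₃ : ∀ u, u ∈ R.S j ↔ ∃ t, u = x₃ t
  comm : ∀ a b, ⁅x₁ a, x₃ b⁆ = x₂ (a * b)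

/-- an anisotropic pseudo-quadratic space in group form -/
structure PQD (F : Type*) [Field F] (Y : Type*) [Group Y] where
  σ : F →+* F
  ε : F
  π : Y → F
  f : Y → Y → F
  ρ : F → Y → Y
  g : F → F → Y
  σσ : ∀ t, σ (σ t) = t
  π_mul : ∀ y z, π (y * z) = π y + π z + f y z
  f_mul_left : ∀ y y' z, f (y * y') z = f y z + f y' z
  f_mul_right : ∀ y z z', f y (z * z') = f y z + f y z'
  π_eq_zero : ∀ y, π y = 0 ↔ y = 1
  f_ρ_left : ∀ s y z, f (ρ s y) z = σ s * f y z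
  f_ρ_right : ∀ s y z, f y (ρ s z) = s * f y z
  π_ρ : ∀ s y, π (ρ s y) = s * σ s * π y
  f_self : ∀ y, f y y = π y - ε * σ (π y)
  f_g_left : ∀ s t z, f (g s t) z = 0
  f_g_right : ∀ s t z, f z (g s t) = 0
  π_g : ∀ s t, π (g s t) = σ s * t + ε * s * σ t
  ne : ∃ y : Y, y ≠ 1

/-- coordinates for a double edge `i, j` inside the diagram `h - i = j` -/
structure C3C {B W : Type*} [Group W] {E : ExchSys B W} {A : Type*} [Group A] (R : RG E A) (h i j : B)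
    (F : Type*) [Field F] where
  c : A2C R h i F
  D : PQD F (R.S j)
  z : F → A
  ι : R.S j →* A
  add : ∀ a b, z (a + b) = z a * z b
  inj : Function.Injective z
  mem : ∀ u, u ∈ R.U (rt E (E.s j) i) ↔ ∃ t, u = z t
  ι_inj : Function.Injective ι
  ι_mem : ∀ u, u ∈ R.U (rt E (E.s i) j) ↔ ∃ y, u = ι y
  comm13 : ∀ s t, ⁅c.x₃ s, z (-t)⁆ = ι (D.g s t)
  comm24 : ∀ a b : R.S j, ⁅ι a, (b : A)⁆ = z (D.f b a)
  comm14 : ∀ s (y : R.S j), ⁅c.x₃ s, (y : A)⁆ = ι (D.ρ s y) * z (-(s * D.π y))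
  tor : ∀ k, E.mat k j = 3 → E.mat k i = 2 → E.mat k h = 2 → ∀ T, R.Tor k T →
    ∃ ν, ∀ y y' : R.S j, (y' : A) = T * y * T⁻¹ → D.π y' = ν * D.π y

end CfsgLib.Tits
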