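import Cfsg.Agent.Lib.Tits.Bld

/-!
# Package EXT1: rigidity and opposite germs (see `plans/TITS.md`)
-/

set_option autoImplicit false
set_option linter.unusedSectionVars false

namespace CfsgLib.Tits
open CfsgLib.BN

namespace Bld
variable {B W : Type*} [Group W] [Finite W] {E : ExchSys B W} {C C' : Type*} {D : Bld E C} {D' : Bld E C'}

theorem exists_opp_adj {K : Set B} {x x' y : C} {k k' : B} (hk : k' ∈ K)
    (e : E.s k' = lng E K * E.s k * lng E K) (h : D.δ x y = lng E K) (hx : x' ∈ D.R {k} x) :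
    ∃ u ∈ D.R {k'} y, D.δ x u = lng E K ∧ D.δ x' u = lng E K := by
  obtain ⟨v, hv, e1⟩ := D.exists_δ_eq_mul hx y
  rcases E.mem_par_singleton.1 hv with rfl | rfl
  · exact ⟨y, D.self_mem_R _ _, h, by rw [e1, one_mul, h]⟩
  obtain ⟨y', hy'⟩ := D.exists_δ y (E.s k')
  have e2 : D.δ x' y = lng E K * E.s k' := by
    rw [e1, h, e, ← mul_assoc, ← mul_assoc, lng_mul_self, one_mul]
  have h4 := len_lng_mul E (E.s_mem_par hk)
  refine D.exists_opp_two_lng hk h (D.mem_R_singleton.2 (.inr hy')) ?_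
  rw [D.δ_P_right hy' (by rw [e2, E.mul_s_mul_s, ← h4, E.len_s]; omega), e2, E.mul_s_mul_s]

theorem op_image_image (J : Set B) : op E '' (op E '' J) = J := by
  rw [Set.image_image]; simp [op_op]

theorem exists_gate_opp' {J : Set B} {x y p : C} (h : D.δ x y = w0 E) (hp : p ∈ D.R J x) :
    ∃ u ∈ D.R (op E '' J) y, D.δ p u = lng E J * w0 E := by
  obtain ⟨u, hu, e⟩ := D.exists_gate_opp (J := op E '' J) (x := y) (y := x)
    (by rw [D.δ_symm, h, w0_inv]) (by rwa [op_image_image])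
  refine ⟨u, hu, ?_⟩
  rw [D.δ_symm, e, lng_op, mul_assoc, w0_mul_self, mul_one, mul_inv_rev, w0_inv, lng_inv]

theorem opp_unique {J : Set B} {p p' u : C} (hp : p' ∈ D.R J p) (h : D.δ p u = lng E J * w0 E)
    (h' : D.δ p' u = lng E J * w0 E) : p' = p :=
  D.gate_unique (fun _ hj => h ▸ P_lng_mul_w0 E hj) (fun _ hj => h' ▸ P_lng_mul_w0 E hj) hp

theorem opp_unique' {J : Set B} {p u u' : C} (hu : u' ∈ D.R (op E '' J) u)
    (h : D.δ p u = lng E J * w0 E) (h' : D.δ p u' = lng E J * w0 E) : u = u' :=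
  D.eq_of_δ _ _ (left_eq_mul.1 (h'.symm.trans (D.δ_gate_opp hu h)))

theorem δ_of_gate {J : Set B} {p z u : C} (hz : z ∈ D.R J p) (h : D.δ p u = lng E J * w0 E) :
    D.δ z u = D.δ z p * (lng E J * w0 E) := by
  rw [D.δ_gate (y := u) (fun j hj => h ▸ P_lng_mul_w0 E hj) hz, h]

/-- rigidity -/
theorem rigid {K : Set B} {x y : C} {f g : C → C'}
    (hf : ∀ u ∈ D.R K x, ∀ v ∈ D.R K x, D'.δ (f u) (f v) = D.δ u v)
    (hg : ∀ u ∈ D.R K x, ∀ v ∈ D.R K x, D'.δ (g u) (g v) = D.δ u v)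
    (h1 : ∀ k ∈ K, ∀ z ∈ D.R {k} x, f z = g z) (hx : f x = g x) (hy : D.δ x y = lng E K) (h2 : f y = g y) :
    ∀ z ∈ D.R K x, f z = g z := by
  have mid : ∀ u ∈ D.R K x, ∀ v ∈ D.R K x, ∀ z ∈ D.R K x, f u = g u → f v = g v →
      E.len (D.δ u v) = E.len (D.δ u z) + E.len (D.δ z v) → f z = g z := fun u hu v hv z hz e1 e2 h =>
    D'.mid_unique (by rw [← D.δ_mul_of_len h, h]) (hf u hu z hz) (hf z hz v hv)
      (by rw [e1, hg u hu z hz]) (by rw [e2, hg z hz v hv])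
  have inK : ∀ {u v}, u ∈ D.R K x → D.δ u v = lng E K → v ∈ D.R K x := fun hu h =>
    D.R_trans hu (by rw [mem_R, h]; exact lng_mem E K)
  have full : ∀ u ∈ D.R K x, ∀ v, f u = g u → (∀ k ∈ K, ∀ z ∈ D.R {k} u, f z = g z) → f v = g v →
      D.δ u v = lng E K → ∀ k ∈ K, ∀ z ∈ D.R {k} v, f z = g z := fun u hu v e1 h1 e2 h j hj z hz => by
    have hv := inK hu h
    have hz' := D.R_trans hv (D.R_mono (Set.singleton_subset_iff.2 hj) _ hz)
    rcases D.mem_R_singleton.1 hz with rfl | hz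
    · exact e2
    obtain ⟨p, hp, e3, h3⟩ : ∃ p ∈ D.R K x, f p = g p ∧ D.δ p z = lng E K * E.s j := by
      rcases D.δ_or_right (x := u) hz with k | k <;> rw [h] at k
      · exact ⟨u, hu, e1, k⟩
      obtain ⟨k', hk', e⟩ := exists_conj_lng E hj
      obtain ⟨p, a1, a2⟩ := D.exists_mid (v := E.s k') (w := lng E K * E.s j) (k.trans (by
        rw [e, mul_assoc, ← mul_assoc (lng E K) (lng E K), lng_mul_self, one_mul, E.mul_s_mul_s]))
      have := D.mem_R_singleton.2 (.inr a1)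
      exact ⟨p, D.R_trans hu (D.R_mono (Set.singleton_subset_iff.2 hk') _ this), h1 k' hk' p this, a2⟩
    have h4 := len_lng_mul E (E.s_mem_par hj)
    refine mid p hp v hv z hz' e3 e2 ?_
    rw [D.δ_P_right (D.δ_s_symm hz) (by rw [h3, E.mul_s_mul_s, ← h4, E.len_s]; omega), h3,
      E.mul_s_mul_s, D.δ_s_symm hz, h4]
  refine fun z hz => (D.R_induction (p := fun u => f u = g u ∧ (∀ k ∈ K, ∀ z ∈ D.R {k} u, f z = g z) ∧
    ∃ v, f v = g v ∧ D.δ u v = lng E K) ⟨hx, h1, y, h2, hy⟩ ?_ z hz).1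
  rintro u hu k hk u' e - ⟨a1, a2, v, a3, a4⟩
  have hu' := D.mem_R_singleton.2 (.inr e)
  obtain ⟨k', hk', e'⟩ := exists_conj_lng E hk
  obtain ⟨v', b1, b2, b3⟩ := exists_opp_adj hk' e' a4 hu'
  have c1 := full u hu v a1 a2 a3 a4 k' hk' v' b1
  exact ⟨a2 k hk u' hu', full v' (inK hu b2) u' c1 (full u hu v' a1 a2 c1 b2) (a2 k hk u' hu')
    (by rw [D.δ_symm, b3, lng_inv]), v', c1, b3⟩

theorem aut_fix_R {K : Set B} {x y : C} {g : Equiv.Perm C} (hg : g ∈ D.Aut)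
    (h1 : ∀ k ∈ K, ∀ z ∈ D.R {k} x, g z = z) (hx : g x = x) (hy : D.δ x y = lng E K) (h2 : g y = y) :
    ∀ z ∈ D.R K x, g z = z := 
  rigid (D' := D) (g := id) (fun u _ v _ => hg u v) (fun _ _ _ _ => rfl) h1 hx hy h2

theorem aut_eq_one {x y : C} {g : Equiv.Perm C} (hg : g ∈ D.Aut)
    (h1 : ∀ k, ∀ z ∈ D.R {k} x, g z = z) (hx : g x = x) (hy : D.δ x y = w0 E) (h2 : g y = y) : g = 1 := 
  Equiv.ext fun z => aut_fix_R (K := Set.univ) hg (fun k _ => h1 k) hx hy h2 z (by rw [R_univ]; trivial)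

theorem Eq2.eq1 {x : C} {f g : C → C'} (h : D.Eq2 x f g) : D.Eq1 x f g := fun i z hz =>
  h i i z (D.R_mono (by simp) _ hz)

theorem Adj.eq1 {k : B} {x x₁ : C} {f g : C → C'} (h : D.Adj k x f g) (hx : x₁ ∈ D.R {k} x) : D.Eq1 x₁ f g := fun l z hz =>
  h l z (D.R_trans (D.R_mono (by simp) _ hx) (D.R_mono (by simp) _ hz))

theorem Loc.congr {x : C} {f g : C → C'} (h : D.Loc D' x f) (e : D.Eq2 x f g) : D.Loc D' x g := fun i j =>
  ⟨fun u hu v hv => by rw [← e i j u hu, ← e i j v hv, (h i j).1 u hu v hv], fun u' hu' => by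
    obtain ⟨u, hu, rfl⟩ := (h i j).2 u' (by rwa [e i j x (D.self_mem_R _ _)])
    exact ⟨u, hu, (e i j u hu).symm⟩⟩

theorem Loc.mem {x z : C} {f : C → C'} (h : D.Loc D' x f) {i j : B} (hz : z ∈ D.R {i, j} x) :
    f z ∈ D'.R {i, j} (f x) := by
  rwa [mem_R, (h i j).1 x (D.self_mem_R _ _) z hz]

theorem Compat.congr {x y : C} {y' : C'} {f g : C → C'} (h : D.Compat D' x f y y') (e : D.Eq2 x f g) :
    D.Compat D' x g y y' := 
  ⟨h.1, fun i j z hz => by rw [← e i j z hz, h.2 i j z hz]⟩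

theorem Op.congr {x y : C} {f f₁ g : C → C'} (h : D.Op D' x f y g) (e : D.Eq2 x f f₁) : D.Op D' x f₁ y g := 
  ⟨h.1, h.2.1.congr e, h.2.2.1, fun i j z hz u hu => by rw [← e i j z hz, h.2.2.2 i j z hz u hu]⟩

theorem Op.symm {x y : C} {f g : C → C'} (h : D.Op D' x f y g) : D.Op D' y g x f := 
  ⟨by rw [D.δ_symm, h.1, w0_inv], h.2.2.1, h.2.1, fun i j z hz u hu => by
    rw [D'.δ_symm, h.2.2.2 _ _ u hu z (by rwa [op_op, op_op]), ← D.δ_symm]⟩

theorem Op.compat {x y : C} {f g : C → C'} (h : D.Op D' x f y g) : D.Compat D' x f y (g y) := 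
  ⟨h.1, fun i j z hz => h.2.2.2 i j z hz y (D.self_mem_R _ _)⟩

variable [Nonempty B]

/-- (OPX) -/
theorem exists_op {x y : C} {y' : C'} {f : C → C'} (hf : D.Loc D' x f) (h : D.Compat D' x f y y') :
    ∃ g, g y = y' ∧ D.Op D' x f y g := by
  classical
  obtain ⟨i₀⟩ := ‹Nonempty B›
  have hx := fun J => D.self_mem_R J x
  have hy := fun J => D.self_mem_R J y
  have o' : D'.δ (f x) y' = w0 E := (h.2 i₀ i₀ x (hx _)).trans h.1
  let T : B → B → C → C' → Prop := fun i j u u' =>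
    u' ∈ D'.R (op E '' {i, j}) y' ∧ ∀ z ∈ D.R {i, j} x, D'.δ (f z) u' = D.δ z u
  have ex : ∀ i j, ∀ u ∈ D.R (op E '' {i, j}) y, ∃ u', T i j u u' := fun i j u hu => by
    obtain ⟨p, hp, e⟩ := D.exists_gate_opp h.1 hu
    obtain ⟨u', hu', e'⟩ := exists_gate_opp' o' (hf.mem hp)
    refine ⟨u', hu', fun z hz => ?_⟩
    rw [δ_of_gate (D'.δ_mem_par (hf.mem hp) (hf.mem hz)) e', δ_of_gate (D.δ_mem_par hp hz) e,
      (hf i j).1 z hz p hp]
  have iso : ∀ i j, ∀ u ∈ D.R (op E '' {i, j}) y, ∀ v ∈ D.R (op E '' {i, j}) y, ∀ u' v',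
      T i j u u' → T i j v v' → D'.δ u' v' = D.δ u v := fun i j u hu v hv u' v' a b => by
    obtain ⟨p, hp, e⟩ := D.exists_gate_opp h.1 hu
    obtain ⟨q, hq, e'⟩ := D.exists_gate_opp h.1 hv
    have := D'.δ_opp (D'.δ_mem_par (hf.mem hp) (hf.mem hq)) (D'.δ_mem_par a.1 b.1)
      ((a.2 p hp).trans e) ((b.2 q hq).trans e')
    rw [(hf i j).1 p hp q hq, D.δ_opp (D.δ_mem_par hp hq) (D.δ_mem_par hu hv) e e'] at this
    exact (mul_left_cancel this).symm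
  have Ty : ∀ i j, T i j y y' := fun i j => ⟨D'.self_mem_R _ _, h.2 i j⟩
  obtain ⟨g, hg⟩ : ∃ g : C → C', ∀ i j, ∀ u ∈ D.R (op E '' {i, j}) y, T i j u (g u) := by
    refine ⟨fun u => if h : ∃ u' i j, u ∈ D.R (op E '' {i, j}) y ∧ T i j u u' then h.choose else y',
      fun i j u hu => ?_⟩
    obtain ⟨u', a⟩ := ex i j u hu
    have k : ∃ u' i j, u ∈ D.R (op E '' {i, j}) y ∧ T i j u u' := ⟨u', i, j, hu, a⟩
    beta_reduce
    rw [dif_pos k]
    obtain ⟨k, l, hu', b⟩ := k.choose_spec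
    have hI : u ∈ D.R (op E '' ({i, j} ∩ {k, l})) y := by
      rw [Set.image_inter (Function.LeftInverse.injective (op_op E)), ← R_inter]; exact ⟨hu, hu'⟩
    obtain ⟨p, hp, e⟩ := D.exists_gate_opp h.1 hI
    rw [← R_inter] at hp
    convert a using 1
    exact opp_unique' (D'.δ_mem_par (x := y') (by rwa [mem_R, iso k l y (hy _) u hu' _ _ (Ty k l) b])
      (by rwa [mem_R, iso i j y (hy _) u hu _ _ (Ty i j) a])) ((b.2 p hp.2).trans e) ((a.2 p hp.1).trans e)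
  have e0 : g y = y' :=
    D'.eq_of_δ _ _ ((iso i₀ i₀ y (hy _) y (hy _) _ _ (hg _ _ y (hy _)) (Ty _ _)).trans (D.δ_self y))
  refine ⟨g, e0, h.1, hf, fun i j => ?_, fun i j z hz u hu => (hg i j u (by rwa [op_pair])).2 z hz⟩
  obtain ⟨i, rfl⟩ := (Function.RightInverse.surjective (op_op E)) i
  obtain ⟨j, rfl⟩ := (Function.RightInverse.surjective (op_op E)) j
  rw [← op_pair, e0]
  refine ⟨fun u hu v hv => iso i j u hu v hv _ _ (hg i j u hu) (hg i j v hv), fun u' hu' => ?_⟩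
  obtain ⟨p', hp', e⟩ := D'.exists_gate_opp o' hu'
  obtain ⟨p, hp, rfl⟩ := (hf i j).2 p' hp'
  obtain ⟨u, hu, e'⟩ := exists_gate_opp' h.1 hp
  exact ⟨u, hu, opp_unique' (D'.δ_mem_par (hg i j u hu).1 hu') (((hg i j u hu).2 p hp).trans e') e⟩

/-- (A) -/
theorem Op.eq_of_mem {x x₁ y : C} {f f₁ g : C → C'} (h : D.Op D' x f y g) (h₁ : D.Op D' x₁ f₁ y g) {i j : B}
    (hx : x₁ ∈ D.R {i, j} x) (e : f₁ x₁ = f x₁) : ∀ z ∈ D.R {i, j} x, f₁ z = f z := fun z hz => by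
  obtain ⟨u, hu, e'⟩ := exists_gate_opp' h.1 hz
  rw [op_pair] at hu
  have hz' := D.δ_mem_par hx hz
  exact opp_unique (D'.δ_mem_par (h.2.1.mem hz) (D'.R_trans (h.2.1.mem hx) (e ▸ h₁.2.1.mem hz')))
    ((h.2.2.2 i j z hz u hu).trans e') ((h₁.2.2.2 i j z hz' u hu).trans e')

/-- (C) -/
theorem Op.compat_of_mem {x y y₁ : C} {f g : C → C'} (h : D.Op D' x f y g) {i j : B}
    (hy : y₁ ∈ D.R {op E i, op E j} y) (h₁ : D.δ x y₁ = w0 E) : D.Compat D' x f y₁ (g y₁) := by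
  refine ⟨h₁, fun k l z hz => ?_⟩
  have hx := fun J => D.self_mem_R J x
  have inR : ∀ {J : Set B} {t}, D.δ x t = lng E J → t ∈ D.R J x := fun e => by
    rw [mem_R, e]; exact lng_mem E _
  obtain ⟨p, p1, p2⟩ := D.exists_gate_w0 {k, l} h.1
  obtain ⟨q, q1, q2⟩ := D.exists_gate_w0 {k, l} h₁
  have o1 := (h.2.2.2 i j x (hx _) y₁ hy).trans h₁
  obtain ⟨q', r1, r2⟩ := D'.exists_gate_w0 {k, l} o1
  have hq' : q' ∈ D'.R {k, l} (f x) := by rw [mem_R, r1]; exact lng_mem E _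
  obtain ⟨L, hL, L1, L2⟩ := exists_conj_par E (K := {k, l}) (L := {k, l} ∩ {i, j}) Set.inter_subset_left
  obtain ⟨t, t1, t2⟩ := D.exists_gate_w0 ({k, l} ∩ {i, j}) h₁
  have ht := inR t1
  rw [← R_inter] at ht
  have a1 := D.gate_mem_R h.1 h₁ (by rwa [op_pair]) L1 p1 p2 q1 q2
  have a2 := D'.gate_mem_R (h.compat.2 i j x (hx _) |>.trans h.1) o1 (by rw [op_pair]; exact h.2.2.1.mem hy)
    L1 (((h.2.1 k l).1 x (hx _) p (inR p1)).trans p1) ((h.compat.2 k l p (inR p1)).trans p2) r1 r2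
  have b1 := δ_of_gate (D.δ_mem_par (inR q1) ht.1) q2
  have b2 := δ_of_gate (D'.δ_mem_par hq' (h.2.1.mem ht.1)) r2
  rw [h.2.2.2 i j t ht.2 y₁ hy, b1, mul_left_inj, ← (h.2.1 k l).1 t ht.1 q (inR q1)] at b2
  have b3 : ∀ m ∈ L, E.P m (D'.δ (f q) (f t)) := fun m hm => by
    rw [t2, ← mul_assoc, mul_left_inj, ← mul_inv_eq_iff_eq_mul] at b1
    rw [(h.2.1 k l).1 q (inR q1) t ht.1, D.δ_symm, ← b1, mul_inv_rev, inv_inv, lng_inv,
      ← mul_one (_ * _), ← lng_mul_self E {k, l}, ← mul_assoc, ← L2]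
    exact (P_mul_lng E (E.par_mono hL (lng_mem E L)) (hL hm)).2 (not_P_lng E hm)
  obtain rfl : q' = f q := D'.gate_unique b3 (fun m hm => by rw [D'.δ_symm, ← b2, ← D'.δ_symm]; exact b3 m hm)
    (D'.δ_mem_par (x := f p) (by rwa [mem_R, (h.2.1 k l).1 p (inR p1) q (inR q1)]) a2)
  rw [δ_of_gate (D'.δ_mem_par hq' (h.2.1.mem hz)) r2, δ_of_gate (D.δ_mem_par (inR q1) hz) q2,
    (h.2.1 k l).1 z hz q (inR q1)]

/-- (U) -/
theorem eq2_of_compat {x y : C} {y' : C'} {f g : C → C'} (hf : D.Loc D' x f) (hg : D.Loc D' x g)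
    (e : D.Eq1 x f g) (h : D.Compat D' x f y y') (h' : D.Compat D' x g y y') : D.Eq2 x f g := fun i j => by
  obtain ⟨p, p1, p2⟩ := D.exists_gate_w0 {i, j} h.1
  have hp : p ∈ D.R {i, j} x := by rw [mem_R, p1]; exact lng_mem E _
  have e0 := e i x (D.self_mem_R _ _)
  exact rigid (hf i j).1 (hg i j).1 (fun k _ => e k) e0 p1 (opp_unique
    (D'.δ_mem_par (e0 ▸ hg.mem hp) (hf.mem hp)) ((h'.2 i j p hp).trans p2) ((h.2 i j p hp).trans p2))

end Bld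

end CfsgLib.Tits
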