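import Mathlib
import Cfsg.Agent.Lib.Tits.Cox

/-!
# Package GEO: the building of a BN-pair (see `plans/TITS.md`)
-/

set_option autoImplicit false

namespace CfsgLib.Tits
open Cfsg CfsgLib.BN
open scoped commutatorElement

namespace Gx

variable {G : Type*} [Group G] (P : BNPair G)

/-- the Weyl distance of two cosets of `B` -/
noncomputable def dd (x y : G ⧸ P.B) : W P := typ P (x.out⁻¹ • y)

variable {P}

theorem dd_mk {g h : G} {w : W P} : dd P g h = w ↔ g⁻¹ * h ∈ cell P w := by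
  obtain ⟨b, hb⟩ := QuotientGroup.mk_out_eq_mul P.B g
  rw [dd, hb, MulAction.Quotient.smul_mk, typ_mk, smul_eq_mul, mul_inv_rev, mul_assoc,
    B_mul_mem_cell_iff (inv_mem b.2)]

theorem dd_mem (g h : G) : g⁻¹ * h ∈ cell P (dd P g h) := dd_mk.1 rfl

theorem rep_inv_mul (v w : W P) : (rep P v)⁻¹ * rep P w ∈ cell P (v⁻¹ * w) := by
  have := self_mem_cell P (mul_mem (inv_mem (rep_mem P v)) (rep_mem P w))
  rwa [cls_mul P (inv_mem (rep_mem P v)) (rep_mem P w), cls_inv P (rep_mem P v), cls_rep, cls_rep] at this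

theorem rep_one : rep P 1 ∈ P.B := mem_cell_one.1 (rep_mem_cell P 1)

theorem exists_of_cell {g : G} {w : W P} (h : g ∈ cell P w) : ∃ b ∈ P.B, ∃ b' ∈ P.B, g = b * rep P w * b' :=
  exists_of_mem_cell (rep_mem_cell P w) h

theorem three {α : Type*} {a b c : α} (h1 : a ≠ b) (h2 : a ≠ c) (h3 : b ≠ c) (y z : α) :
    a ≠ y ∧ a ≠ z ∨ b ≠ y ∧ b ≠ z ∨ c ≠ y ∧ c ≠ z := by
  by_contra! k
  by_cases e1 : a = y
  · subst e1; exact h3 ((k.2.1 h1.symm).trans (k.2.2 h2.symm).symm)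
  · by_cases e2 : b = y
    · subst e2; exact h2 ((k.1 h1).trans (k.2.2 h3.symm).symm)
    · exact h1 ((k.1 e1).trans (k.2.1 e2).symm)

variable (P) in
/-- the building of a BN-pair -/
noncomputable def bld : Bld (exch P) (G ⧸ P.B) where
  δ := dd P
  δ_self x := by
    obtain ⟨g, rfl⟩ := QuotientGroup.mk_surjective x
    exact dd_mk.2 (mem_cell_one.2 (by simp))
  eq_of_δ x y h := by
    obtain ⟨g, rfl⟩ := QuotientGroup.mk_surjective x
    obtain ⟨k, rfl⟩ := QuotientGroup.mk_surjective y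
    exact QuotientGroup.eq.2 (mem_cell_one.1 (dd_mk.1 h))
  δ_symm x y := by
    obtain ⟨g, rfl⟩ := QuotientGroup.mk_surjective x
    obtain ⟨k, rfl⟩ := QuotientGroup.mk_surjective y
    exact dd_mk.2 (by simpa using inv_mem_cell (dd_mem g k))
  δ_or i x y z h := by
    obtain ⟨g, rfl⟩ := QuotientGroup.mk_surjective x
    obtain ⟨k, rfl⟩ := QuotientGroup.mk_surjective y
    obtain ⟨l, rfl⟩ := QuotientGroup.mk_surjective z
    have := cell_s_mul i (dd_mk.1 h) (dd_mem k l)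
    rw [mul_assoc, mul_inv_cancel_left] at this
    exact this.imp dd_mk.2 dd_mk.2
  δ_P i x y z h h' := by
    obtain ⟨g, rfl⟩ := QuotientGroup.mk_surjective x
    obtain ⟨k, rfl⟩ := QuotientGroup.mk_surjective y
    obtain ⟨l, rfl⟩ := QuotientGroup.mk_surjective z
    have := cell_s_mul_of_lt ((exch P).P_iff.1 h') (dd_mk.1 h) (dd_mem k l)
    rw [mul_assoc, mul_inv_cancel_left] at this
    exact dd_mk.2 this
  apt x y := by
    obtain ⟨g, rfl⟩ := QuotientGroup.mk_surjective x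
    obtain ⟨k, rfl⟩ := QuotientGroup.mk_surjective y
    obtain ⟨b, hb, b', hb', e⟩ := exists_of_cell (dd_mem (P := P) g k)
    refine ⟨fun v => (g * b * rep P v : G), fun v w => dd_mk.2 ?_, QuotientGroup.eq.2 ?_, QuotientGroup.eq.2 ?_⟩
    · simpa [mul_assoc] using rep_inv_mul v w
    · simpa [mul_assoc] using mul_mem (inv_mem rep_one) (inv_mem hb)
    · rw [mul_assoc g, mul_inv_rev, mul_assoc, e, inv_mul_cancel_left]; exact hb'
  thick i x y z := by
    obtain ⟨g, rfl⟩ := QuotientGroup.mk_surjective x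
    obtain ⟨b, hb, h⟩ := exists_sbs_mem i
    have n : ∀ {k l : G}, k⁻¹ * l ∈ cell P (sW P i) → (k : G ⧸ P.B) ≠ l := fun h e =>
      sW_ne_one i (cell_unique h (mem_cell_one.2 (QuotientGroup.eq.1 e)))
    have h1 : g⁻¹ * (g * i) ∈ cell P (sW P i) := by simpa using S_mem_cell i
    have h2 : g⁻¹ * (g * (i * b * i)) ∈ cell P (sW P i) := by simpa using h
    have h3 : (g * i)⁻¹ * (g * (i * b * i)) ∈ cell P (sW P i) := by
      simpa [mul_assoc] using B_mul_mem_cell hb (S_mem_cell i)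
    have m : ∀ {k : G}, g⁻¹ * k ∈ cell P (sW P i) → dd P g k ∈ (exch P).par {i} := fun h =>
      (exch P).mem_par_singleton.2 (Or.inr (dd_mk.2 h))
    have m0 : dd P g g ∈ (exch P).par {i} :=
      (exch P).mem_par_singleton.2 (Or.inl (dd_mk.2 (mem_cell_one.2 (by simp))))
    rcases three (n h1) (n h2) (n h3) y z with k | k | k
    exacts [⟨_, m0, k⟩, ⟨_, m h1, k⟩, ⟨_, m h2, k⟩]

theorem bld_mk {g h : G} {w : W P} : (bld P).δ g h = w ↔ g⁻¹ * h ∈ cell P w := dd_mk

variable (P) in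
/-- the standard apartment -/
noncomputable def ap (w : W P) : G ⧸ P.B := (rep P w : G)

theorem isApt : (bld P).IsApt (ap P) := fun v w => dd_mk.2 (rep_inv_mul v w)

variable (P) in
/-- the action on the chambers -/
abbrev rho : G →* Equiv.Perm (G ⧸ P.B) := MulAction.toPermHom G (G ⧸ P.B)

theorem rho_mk (g h : G) : rho P g h = (g * h : G) := rfl

theorem fix_iff {g h : G} : rho P g h = h ↔ h⁻¹ * g * h ∈ P.B := by
  rw [rho_mk, eq_comm, QuotientGroup.eq, mul_assoc]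

theorem fix_one {g : G} : rho P g (ap P 1) = ap P 1 ↔ g ∈ P.B := by
  rw [ap, fix_iff, mul_mem_cancel_right rep_one, mul_mem_cancel_left (inv_mem rep_one)]

theorem rho_mem (g : G) : rho P g ∈ (bld P).Aut := fun x y => by
  obtain ⟨k, rfl⟩ := QuotientGroup.mk_surjective x
  obtain ⟨l, rfl⟩ := QuotientGroup.mk_surjective y
  exact dd_mk.2 (by simpa [mul_assoc, bld] using dd_mem (P := P) k l)

theorem rho_inj [IsSimpleGroup G] [Nonempty P.S] : Function.Injective (rho P) := by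
  obtain ⟨s⟩ := ‹Nonempty P.S›
  refine (rho P).ker_eq_bot_iff.1 (((rho P).normal_ker.eq_bot_or_eq_top).resolve_right fun e => ?_)
  have : rho P s = 1 := (e ▸ Subgroup.mem_top _ : (s : G) ∈ (rho P).ker)
  exact S_not_mem_B s.2 (fix_one.1 (by rw [this]; rfl))

theorem of_one {g : G} {w : W P} (h : (bld P).δ (ap P 1) g = w) : g ∈ cell P w :=
  (B_mul_mem_cell_iff (inv_mem rep_one)).1 (bld_mk.1 h)

theorem exists_B {z : G ⧸ P.B} {w : W P} (h : (bld P).δ (ap P 1) z = w) : ∃ b ∈ P.B, rho P b (ap P w) = z := by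
  obtain ⟨k, rfl⟩ := QuotientGroup.mk_surjective z
  obtain ⟨b, hb, b', hb', rfl⟩ := exists_of_cell (of_one h)
  exact ⟨b, hb, QuotientGroup.eq.2 (by simpa [mul_assoc] using hb')⟩

theorem str : (bld P).Str (ap P) (rho P).range := by
  refine ⟨by rintro _ ⟨g, rfl⟩; exact rho_mem g, fun v => ⟨_, ⟨rep P v, rfl⟩, rho_mem _, fun x => ?_⟩, fun z hz => ?_⟩
  · refine QuotientGroup.eq.2 ((cls_eq_iff P (mul_mem (rep_mem P v) (rep_mem P x)) (rep_mem P _)).1 ?_)
    rw [cls_mul P (rep_mem P v) (rep_mem P x), cls_rep, cls_rep, cls_rep]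
  · obtain ⟨b, hb, e⟩ := exists_B hz
    exact ⟨_, ⟨b, rfl⟩, fix_one.2 hb, e⟩

theorem spl [Finite G] (hi : Function.Injective (rho P)) {p : ℕ} {q : P.S → ℕ} (h : SplitBN P p q) :
    (bld P).Spl (ap P) (rho P).range p q := by
  obtain ⟨U, Y, h1, h2, h3, h4, h5, h6, h7, h8, h9, h10⟩ := h
  refine ⟨U.map (rho P), Subgroup.map_le_range _ _, h1.map _, ?_, ?_, fun z hz => ?_, ?_, fun s =>
    ⟨(Y s).map (rho P), Subgroup.map_mono (h6 s), ?_, (Subgroup.card_map_of_injective hi).trans (h7 s),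
      fun z hz => ?_⟩⟩
  · rintro _ ⟨u, hu, rfl⟩
    exact fix_one.2 (h2 hu)
  · rintro _ ⟨g, rfl⟩ hg ⟨k, hk⟩
    exact ⟨g, h3 g (fix_one.1 hg) ⟨k, hi (by rw [map_pow, hk, map_one])⟩, rfl⟩
  · obtain ⟨b, hb, rfl⟩ := exists_B hz
    obtain ⟨u, hu, t, ht, rfl⟩ := h4 b hb
    refine ⟨_, ⟨u, hu, rfl⟩, ?_⟩
    rw [map_mul, Equiv.Perm.mul_apply, ap, (fix_iff (g := t)).2]
    simpa using P.conj_mem _ (inv_mem (rep_mem P (w0 (exch P)))) t ht
  · rintro _ ⟨u, hu, rfl⟩ e
    rw [h5 _ (rep_mem P _) (fun s => by rw [cls_rep]; exact not_P_w0 _ s) u hu (fix_iff.1 e), map_one]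
  · rintro _ ⟨y, hy, rfl⟩
    refine ⟨rho_mem y, fun x hx => fix_iff.2 (h9 s _ (rep_mem P x) (by rw [cls_rep]; exact (mem_rt_one _).1 hx) y hy),
      fun x t hx hx' z hz => ?_⟩
    have k1 : (exch P).P s (cls P (rep_mem P x)) := by rw [cls_rep]; exact (mem_rt_one _).1 hx
    rcases (exch P).mem_par_singleton.1 hz with e | e
    · rw [← (bld P).eq_of_δ _ _ e]; exact fix_iff.2 (h9 s _ (rep_mem P x) k1 y hy)
    · obtain ⟨k, rfl⟩ := QuotientGroup.mk_surjective z
      have := h10 s t _ (rep_mem P x) k1 (by rw [cls_rep]; exact (mem_rt_one _).1 hx') y hy _ (bld_mk.1 e)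
      exact fix_iff.2 (by simpa [mul_assoc] using this)
  · obtain ⟨k, rfl⟩ := QuotientGroup.mk_surjective z
    obtain ⟨y, hy, b, hb, rfl⟩ := h8 s k (of_one hz)
    refine ⟨_, ⟨y, hy, rfl⟩, QuotientGroup.eq.2 ?_⟩
    have := (cls_eq_iff P (rep_mem P (sW P s)) (P.subset s.2)).1 (cls_rep P _)
    simpa [mul_assoc, exch_s] using mul_mem this hb

section Map
variable {B W B' W' : Type*} [Group W] [Group W'] {E : ExchSys B W} {E' : ExchSys B' W'}

theorem exists_hom' (π : B → B') (h : ∀ i j, E'.mat (π i) (π j) = E.mat i j) :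
    ∃ τ : W →* W', ∀ i, τ (E.s i) = E'.s (π i) :=
  E.exists_hom _ fun i j => by rw [← E.mat_apply, ← h, E'.mat_apply, pow_orderOf_eq_one]

theorem len_map_le {τ : W →* W'} {π : B → B'} (h : ∀ i, τ (E.s i) = E'.s (π i)) (w : W) :
    E'.len (τ w) ≤ E.len w := by
  refine E.induction_red_left (p := fun w => E'.len (τ w) ≤ E.len w) w (by rw [map_one, E'.len_one]; exact Nat.zero_le _) fun i w hP ih => ?_
  rw [map_mul, h, E.len_of_P hP]
  exact (E'.len_s_mul_le _ _).trans (by omega)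

theorem exists_equiv (π : B ≃ B') (h : ∀ i j, E'.mat (π i) (π j) = E.mat i j) :
    ∃ τ : W ≃* W', (∀ i, τ (E.s i) = E'.s (π i)) ∧ ∀ i w, E'.P (π i) (τ w) ↔ E.P i w := by
  obtain ⟨τ, h1⟩ := exists_hom' π h
  obtain ⟨σ, h2⟩ := exists_hom' (E := E') (E' := E) π.symm fun i j => by rw [← h]; simp
  have e1 : σ.comp τ = MonoidHom.id W := E.hom_ext fun i => by simp [h1, h2]
  have e2 : τ.comp σ = MonoidHom.id W' := E'.hom_ext fun i => by simp [h1, h2]
  have l : ∀ w, E'.len (τ w) = E.len w := fun w => (len_map_le h1 w).antisymm (by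
    have := len_map_le h2 (τ w)
    rwa [show σ (τ w) = w from DFunLike.congr_fun e1 w] at this)
  refine ⟨τ.toMulEquiv σ e1 e2, h1, fun i w => ?_⟩
  show E'.P (π i) (τ w) ↔ _
  rw [E'.P_iff, E.P_iff, ← h1, ← map_mul, l, l]

end Map

end Gx

open Gx

/-- the building of a finite simple group with a BN-pair -/
theorem exists_geo {G : Type*} [Group G] [Finite G] [IsSimpleGroup G] (P : BNPair G) [Nonempty P.S] :
    Nonempty (Geo (exch P) G) := ⟨⟨_, inferInstance, bld P, ap P, isApt, rho P, rho_inj, str⟩⟩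

/-- transport of a building along an isomorphism of diagrams -/
theorem exists_bld_map {B W B' W' : Type*} [Group W] [Group W'] [Finite W] [Finite W'] {E : ExchSys B W}
    (E' : ExchSys B' W') {C : Type*} (D : Bld E C) (π : B ≃ B') (h : ∀ i j, E'.mat (π i) (π j) = E.mat i j) :
    ∃ (τ : W ≃* W') (D' : Bld E' C), (∀ i, τ (E.s i) = E'.s (π i)) ∧ ∀ a, D.IsApt a → D'.IsApt (a ∘ τ.symm) ∧
      (∀ w i, D'.UG (a ∘ τ.symm) (rt E' (τ w) (π i)) = D.UG a (rt E w i)) ∧
      (∀ K, D.Str a K → D'.Str (a ∘ τ.symm) K) ∧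
      ∀ K p q, D.Spl a K p q → D'.Spl (a ∘ τ.symm) K p (q ∘ π.symm) := by
  obtain ⟨τ, h1, h2⟩ := exists_equiv π h
  have h3 : ∀ i w, τ w ∈ E'.par {π i} ↔ w ∈ E.par {i} := fun i w => by
    rw [E'.mem_par_singleton, E.mem_par_singleton, ← h1, map_eq_one_iff τ τ.injective, τ.injective.eq_iff]
  have h4 : τ (w0 E) = w0 E' := ExchSys.longest_unique
    (π.surjective.forall.2 fun i => by rw [h2]; exact not_P_w0 E i) (not_P_w0 E')
  have h5 : ∀ w i x, τ x ∈ rt E' (τ w) (π i) ↔ x ∈ rt E w i := fun w i x => by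
    rw [mem_rt, mem_rt, ← h2, map_mul, map_inv]
  have ap : ∀ {a : W → C}, D.IsApt a → ∀ v w, τ (D.δ (a (τ.symm v)) (a (τ.symm w))) = v⁻¹ * w := fun ha v w => by
    rw [ha]; simp
  let D' : Bld E' C :=
    { δ := fun x y => τ (D.δ x y)
      δ_self := fun x => by rw [D.δ_self, map_one]
      eq_of_δ := fun x y e => D.eq_of_δ x y ((map_eq_one_iff τ τ.injective).1 e)
      δ_symm := fun x y => by rw [D.δ_symm, map_inv]
      δ_or := π.surjective.forall.2 fun i x y z e => by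
        rw [← h1] at e ⊢
        exact (D.δ_or i x y z (τ.injective e)).imp (fun k => by rw [k, map_mul]) (congrArg τ)
      δ_P := π.surjective.forall.2 fun i x y z e k => by
        rw [← h1] at e ⊢
        rw [D.δ_P i x y z (τ.injective e) ((h2 _ _).1 k), map_mul]
      apt := fun x y =>
        let ⟨a, a1, a2, a3⟩ := D.apt x y
        ⟨a ∘ τ.symm, ap a1, by simpa using a2, by simpa using a3⟩
      thick := π.surjective.forall.2 fun i x y z =>
        let ⟨u, u1, u2⟩ := D.thick i x y z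
        ⟨u, (h3 _ _).2 u1, u2⟩ }
  have au : ∀ g, g ∈ D'.Aut ↔ g ∈ D.Aut := fun g => forall₂_congr fun x y => τ.injective.eq_iff
  have e0 : τ.symm (w0 E') = w0 E := by rw [← h4, τ.symm_apply_apply]
  have ug : ∀ a w i, D'.UG (a ∘ τ.symm) (rt E' (τ w) (π i)) = D.UG a (rt E w i) := fun a w i => by
    ext g
    refine and_congr (au g) (and_congr (τ.surjective.forall.trans (forall_congr' fun x => ?_))
      (τ.surjective.forall.trans (forall_congr' fun x => π.surjective.forall.trans (forall_congr' fun j => ?_))))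
    · simp only [h5, Function.comp, τ.symm_apply_apply]
    · rw [← h1, ← map_mul, h5, h5]
      simp only [Function.comp, τ.symm_apply_apply]
      exact imp_congr_right fun _ => imp_congr_right fun _ => forall_congr' fun z => imp_congr_left (h3 _ _)
  have op : ∀ {a : W → C} {z w}, D'.δ ((a ∘ τ.symm) 1) z = τ w → D.δ (a 1) z = w := fun e => by
    simpa using τ.injective e
  refine ⟨τ, D', h1, fun a ha => ⟨ap ha, ug a, fun K ⟨k1, k2, k3⟩ => ⟨fun g hg => (au g).2 (k1 hg), fun v => ?_,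
    fun z hz => ?_⟩, fun K p q ⟨U, u1, u2, u3, u4, u5, u6, u7⟩ => ⟨U, u1, u2, by simpa using u3, by simpa using u4,
      fun z hz => ?_, by simpa [e0] using u6, π.surjective.forall.2 fun i => ?_⟩⟩⟩
  · obtain ⟨n, n1, n2, n3⟩ := k2 (τ.symm v)
    exact ⟨n, n1, (au n).2 n2, fun x => by simpa using n3 (τ.symm x)⟩
  · simpa [e0] using k3 z (op (h4 ▸ hz))
  · simpa [e0] using u5 z (op (h4 ▸ hz))
  · obtain ⟨Y, y1, y2, y3, y4⟩ := u7 i
    refine ⟨Y, y1, by rwa [← map_one τ, ug], by simpa using y3, fun z hz => ?_⟩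
    rw [← h1] at hz ⊢
    simpa using y4 z (op hz)

/-- the building of a model, over a given Coxeter system with the same diagram -/
theorem exists_geo_of_mod {B W : Type*} [Group W] [Finite W] (E : ExchSys B W) [Nonempty B] {n : ℕ} {M : ℕ → ℕ → ℕ}
    (e : B ≃ Fin n) (hE : ∀ i j, E.mat i j = M (e i) (e j)) {q : ℕ → ℕ} {X : Type*} [Group X] [Finite X]
    [IsSimpleGroup X] (h : BNMod n M q X) :
    ∃ (Δ : Geo E X) (p : ℕ), p.Prime ∧ Δ.D.Spl Δ.a Δ.ρ.range p fun i => q (e i) := by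
  obtain ⟨P, f, p, hp, h1, h2⟩ := h
  have : Nonempty P.S := (f.trans e.symm).nonempty_congr.2 ‹_›
  obtain ⟨τ, D', -, k⟩ := exists_bld_map E (bld P) (f.trans e.symm) fun i j => by
    rw [hE, ExchSys.mat_apply, exch_s, exch_s, h1]; simp
  obtain ⟨k1, -, k2, k3⟩ := k _ isApt
  refine ⟨⟨_, inferInstance, D', _, k1, rho P, rho_inj, k2 _ str⟩, p, hp, ?_⟩
  simpa [Function.comp_def] using k3 _ _ _ (spl rho_inj h2)

end CfsgLib.Tits
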